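import Mathlib
import Cfsg.Agent.Lib.P3L.M4

/-! The model `SL₄(3)` and its point stabiliser inside a group `G`. -/

set_option autoImplicit false

namespace H20.L43

open Subgroup M4

/-- the stabiliser of the first point -/
def Pb (m : M4) : Prop := m.det = 1 ∧ m.a21 = 0 ∧ m.a31 = 0 ∧ m.a41 = 0

/-- the domain: `SL₄(3)` if `d` holds, the point stabiliser otherwise -/
def Dm (d : Prop) (m : M4) : Prop := m.det = 1 ∧ (d ∨ (m.a21 = 0 ∧ m.a31 = 0 ∧ m.a41 = 0))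

instance (m : M4) : Decidable (Pb m) := by unfold Pb; infer_instance

/-- unitriangular matrices, entries `12 13 14 23 24 34` -/
def uu (a b c d e k : ZMod 3) : M4 := ⟨1, a, b, c, 0, 1, d, e, 0, 0, 1, k, 0, 0, 0, 1⟩

/-- the central transvection -/
def zz : M4 := uu 0 0 1 0 0 0

/-- diagonal matrices -/
def dg (a b c d : ZMod 3) : M4 := ⟨a, 0, 0, 0, 0, b, 0, 0, 0, 0, c, 0, 0, 0, 0, d⟩

/-- the involution -/
def tt : M4 := dg 1 (-1) (-1) 1

/-- a second involution -/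
def rr : M4 := dg 1 1 (-1) (-1)

/-- Weyl element -/
def n1 : M4 := ⟨0, 1, 0, 0, -1, 0, 0, 0, 0, 0, 1, 0, 0, 0, 0, 1⟩

/-- Weyl element -/
def n2 : M4 := ⟨1, 0, 0, 0, 0, 0, 1, 0, 0, -1, 0, 0, 0, 0, 0, 1⟩

/-- Weyl element -/
def n3 : M4 := ⟨1, 0, 0, 0, 0, 1, 0, 0, 0, 0, 0, 1, 0, 0, -1, 0⟩

/-- a square root of `-1` -/
def uI : M4 := n1 * n3

theorem force_eq_defs : True := by
  have := @Pb.eq_1
  have := @Dm.eq_1
  have := @uu.eq_1
  have := @zz.eq_1
  have := @dg.eq_1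
  have := @tt.eq_1
  have := @rr.eq_1
  have := @n1.eq_1
  have := @n2.eq_1
  have := @n3.eq_1
  have := @uI.eq_1
  trivial

variable {d c : Prop}

theorem Pb.dm {m : M4} (h : Pb m) : Dm d m := ⟨h.1, Or.inr h.2⟩

theorem dm_false {m : M4} : Dm False m ↔ Pb m := by simp [Dm, Pb]

theorem dm_true {m : M4} : Dm True m ↔ m.det = 1 := by simp [Dm]

theorem Dm.pb {m : M4} (h : Dm d m) (hd : ¬d) : Pb m := ⟨h.1, h.2.resolve_left hd⟩

theorem Dm.mul {a b : M4} (ha : Dm d a) (hb : Dm d b) : Dm d (a * b) := by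
  refine ⟨by rw [det_mul, ha.1, hb.1, mul_one], ?_⟩
  rcases ha.2 with h | ⟨h1, h2, h3⟩
  · exact Or.inl h
  rcases hb.2 with h | ⟨k1, k2, k3⟩
  · exact Or.inl h
  · exact Or.inr (by simp [*])

theorem Dm.neg {a : M4} (ha : Dm d a) : Dm d (-a) :=
  ⟨by rw [det_neg, ha.1], ha.2.imp_right fun h => by simp [h]⟩

theorem Dm.adj {a : M4} (ha : Dm d a) : Dm d a.adj :=
  ⟨det_adj ha.1, ha.2.imp_right fun h => by simp [M4.adj, h]⟩

theorem Pb.mul {a b : M4} (ha : Pb a) (hb : Pb b) : Pb (a * b) :=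
  dm_false.1 (ha.dm.mul hb.dm)

theorem Pb.adj {a : M4} (ha : Pb a) : Pb a.adj := dm_false.1 ha.dm.adj

theorem pb_one : Pb 1 := by decide

theorem pb_uu (a b c d e k : ZMod 3) : Pb (uu a b c d e k) := by simp [Pb, uu, det]

theorem uu_mul (a b c d e k a' b' c' d' e' k' : ZMod 3) :
    uu a b c d e k * uu a' b' c' d' e' k' = uu (a + a') (b + b' + a * d')
      (c + c' + a * e' + b * k') (d + d') (e + e' + d * k') (k + k') := by
  ext <;> simp [uu] <;> ring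

theorem uu_zero : uu 0 0 0 0 0 0 = 1 := rfl

theorem uu3 (a b c d e k : ZMod 3) : uu a b c d e k ^ 3 = uu 0 0 (a * d * k) 0 0 0 := by
  ext <;> simp [uu, pow_succ] <;> grind

theorem uu9 (a b c d e k : ZMod 3) : uu a b c d e k ^ 9 = 1 := by
  rw [show 9 = 3 * 3 from rfl, pow_mul, uu3, uu3, mul_zero, uu_zero]

theorem uu_inj {a b c d e k a' b' c' d' e' k' : ZMod 3}
    (h : uu a b c d e k = uu a' b' c' d' e' k') :
    a = a' ∧ b = b' ∧ c = c' ∧ d = d' ∧ e = e' ∧ k = k' := by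
  simpa [uu] using h

/-- `f` is a homomorphism on the domain with kernel `±1` -/
structure Hm {G : Type*} [Group G] (d : Prop) (f : M4 → G) : Prop where
  mul : ∀ a b, Dm d a → Dm d b → f (a * b) = f a * f b
  ker : ∀ a, Dm d a → (f a = 1 ↔ a = 1 ∨ a = -1)

/-- the model contains the normaliser of `Z`, with control of the conjugates of `z` in `Q` -/
structure Md {G : Type*} [Group G] (d c : Prop) (f : M4 → G) : Prop extends Hm d f where
  nz : ∀ g, g * f zz * g⁻¹ ∈ zpowers (f zz) → ∃ m, Pb m ∧ f m = g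
  c0 : ∀ g a b x e k, g * f zz * g⁻¹ = f (uu a b x 0 e k) → (e = 0 ∧ k = 0) ∨ (c ∧ a = 0 ∧ b = 0)

variable {G : Type*} [Group G] {f : M4 → G}

namespace Hm

theorem one (h : Hm d f) : f 1 = 1 := (h.ker _ pb_one.dm).2 (Or.inl rfl)

theorem neg (h : Hm d f) {a : M4} (ha : Dm d a) : f (-a) = f a := by
  have := h.mul (-1) a pb_one.dm.neg ha
  rwa [(h.ker _ pb_one.dm.neg).2 (Or.inr rfl), one_mul, neg_one_mul] at this

theorem adj (h : Hm d f) {a : M4} (ha : Dm d a) : f a.adj = (f a)⁻¹ :=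
  eq_inv_of_mul_eq_one_left (by rw [← h.mul _ _ ha.adj ha, adj_mul ha.1, h.one])

theorem eq_iff (h : Hm d f) {a b : M4} (ha : Dm d a) (hb : Dm d b) :
    f a = f b ↔ a = b ∨ a = -b := by
  refine ⟨fun e => ?_, fun e => e.elim (congrArg f) fun e => by rw [e, h.neg hb]⟩
  have := (h.ker _ (ha.mul hb.adj)).1 (by rw [h.mul _ _ ha hb.adj, h.adj hb, e, mul_inv_cancel])
  refine this.imp (fun e => ?_) fun e => ?_
  · rw [← mul_one a, ← adj_mul hb.1, ← mul_assoc, e, one_mul]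
  · rw [← mul_one a, ← adj_mul hb.1, ← mul_assoc, e, neg_one_mul]

/-- the image -/
def H (h : Hm d f) : Subgroup G where
  carrier := {g | ∃ m, Dm d m ∧ f m = g}
  mul_mem' := by
    rintro _ _ ⟨a, ha, rfl⟩ ⟨b, hb, rfl⟩
    exact ⟨_, ha.mul hb, h.mul _ _ ha hb⟩
  one_mem' := ⟨1, pb_one.dm, h.one⟩
  inv_mem' := by
    rintro _ ⟨a, ha, rfl⟩
    exact ⟨_, ha.adj, h.adj ha⟩

theorem force_eq_H : True := by
  have := @H.eq_1.{0}
  trivial

theorem mem_H (h : Hm d f) {g : G} : g ∈ h.H ↔ ∃ m, Dm d m ∧ f m = g := Iff.rfl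

theorem mH (h : Hm d f) {a : M4} (ha : Dm d a) : f a ∈ h.H := ⟨a, ha, rfl⟩

theorem mul' (h : Hm d f) {a b x : M4} (ha : Dm d a) (hb : Dm d b) (e : a * b = x) :
    f a * f b = f x := by rw [← e, h.mul _ _ ha hb]

theorem inv' (h : Hm d f) {a b : M4} (ha : Dm d a) (hb : Dm d b) (e : a * b = 1) :
    (f a)⁻¹ = f b := inv_eq_of_mul_eq_one_right (by rw [h.mul' ha hb e, h.one])

theorem pow (h : Hm d f) {a : M4} (ha : Dm d a) (n : ℕ) : Dm d (a ^ n) ∧ f a ^ n = f (a ^ n) := by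
  induction n with
  | zero => exact ⟨pb_one.dm, by simp [h.one]⟩
  | succ n ih => exact ⟨pow_succ a n ▸ ih.1.mul ha, by rw [pow_succ, ih.2, pow_succ, h.mul _ _ ih.1 ha]⟩

theorem cj (h : Hm d f) {m a b : M4} (hm : Dm d m) (ha : Dm d a) (hb : Dm d b)
    (e : m * a = b * m) : f m * f a * (f m)⁻¹ = f b := by
  rw [mul_inv_eq_iff_eq_mul, ← h.mul _ _ hm ha, e, h.mul _ _ hb hm]

theorem cj_adj (h : Hm d f) {m a : M4} (hm : Dm d m) (ha : Dm d a) :
    f m * f a * (f m)⁻¹ = f (m * a * m.adj) := by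
  rw [h.mul _ _ (hm.mul ha) hm.adj, h.mul _ _ hm ha, h.adj hm]

theorem comm (h : Hm d f) {a b : M4} (ha : Dm d a) (hb : Dm d b) (e : a * b = b * a) :
    f a * f b = f b * f a := by rw [← h.mul _ _ ha hb, e, h.mul _ _ hb ha]

theorem cj_or (h : Hm d f) {m a b : M4} (hm : Dm d m) (ha : Dm d a) (hb : Dm d b)
    (e : f m * f a * (f m)⁻¹ = f b) : m * a = b * m ∨ m * a = -(b * m) := by
  rw [mul_inv_eq_iff_eq_mul, ← h.mul _ _ hm ha, ← h.mul _ _ hb hm] at e
  exact (h.eq_iff (hm.mul ha) (hb.mul hm)).1 e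

/-- conjugacy of unipotent elements is conjugacy of matrices -/
theorem cj_of (h : Hm d f) {m a b : M4} (hm : Dm d m) (ha : Dm d a) (hb : Dm d b)
    (a9 : a ^ 9 = 1) (b9 : b ^ 9 = 1) (e : f m * f a * (f m)⁻¹ = f b) : m * a = b * m := by
  refine (h.cj_or hm ha hb e).resolve_right fun e => ?_
  have : ∀ n : ℕ, m * a ^ n = (-b) ^ n * m := fun n => by
    induction n with
    | zero => simp
    | succ n ih => rw [pow_succ, ← mul_assoc, ih, mul_assoc, e, pow_succ, mul_assoc, neg_mul]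
  have e9 := this 9
  rw [a9, Odd.neg_pow (by decide), b9, mul_one] at e9
  have := congrArg (· * m.adj) e9
  simp only [mul_assoc, mul_adj hm.1] at this
  exact absurd this (by decide)

theorem uu_inj (h : Hm d f) {a b c x e k a' b' c' x' e' k' : ZMod 3}
    (q : f (uu a b c x e k) = f (uu a' b' c' x' e' k')) :
    a = a' ∧ b = b' ∧ c = c' ∧ x = x' ∧ e = e' ∧ k = k' := by
  rcases (h.eq_iff (pb_uu ..).dm (pb_uu ..).dm).1 q with q | q
  · exact H20.L43.uu_inj q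
  · exact absurd (congrArg M4.a11 q) (show (1 : ZMod 3) ≠ -1 by decide)

theorem uu_mul (h : Hm d f) (a b c x e k a' b' c' x' e' k' : ZMod 3) :
    f (uu a b c x e k) * f (uu a' b' c' x' e' k') = f (uu (a + a') (b + b' + a * x')
      (c + c' + a * e' + b * k') (x + x') (e + e' + x * k') (k + k')) :=
  h.mul' (pb_uu ..).dm (pb_uu ..).dm (H20.L43.uu_mul ..)

theorem uu_inv (h : Hm d f) (a b c x e k : ZMod 3) : (f (uu a b c x e k))⁻¹ =
    f (uu (-a) (a * x - b) (a * e + b * k - a * x * k - c) (-x) (x * k - e) (-k)) :=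
  h.inv' (pb_uu ..).dm (pb_uu ..).dm (by ext <;> simp [uu] <;> ring)

theorem mem_zz (h : Hm d f) {g : G} : g ∈ zpowers (f zz) ↔ ∃ x, f (uu 0 0 x 0 0 0) = g := by
  have e : ∀ n : ℕ, f zz ^ n = f (uu 0 0 n 0 0 0) := fun n => by
    induction n with
    | zero => rw [pow_zero, Nat.cast_zero, uu_zero, h.one]
    | succ n ih => rw [pow_succ, ih, zz, h.uu_mul]; simp
  constructor
  · rintro ⟨n, rfl⟩
    rcases Int.eq_nat_or_neg n with ⟨n, rfl | rfl⟩
    · exact ⟨n, by simp [e]⟩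
    · exact ⟨-n, by simp [e, h.uu_inv]⟩
  · rintro ⟨x, rfl⟩
    exact ⟨x.val, by simp only [zpow_natCast, e, ZMod.natCast_zmod_val]⟩

/-- the image of a multiplicatively closed set of matrices -/
theorem exists_sub [Finite G] (h : Hm d f) (S : M4 → Prop) (h1 : S 1)
    (hS : ∀ p q, S p → S q → S (p * q)) (hD : ∀ p, S p → Dm d p) :
    ∃ K : Subgroup G, ∀ g, g ∈ K ↔ ∃ p, S p ∧ f p = g := by
  let E : Submonoid G :=
    { carrier := {g | ∃ p, S p ∧ f p = g}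
      mul_mem' := by
        rintro _ _ ⟨p, hp, rfl⟩ ⟨q, hq, rfl⟩
        exact ⟨_, hS p q hp hq, h.mul p q (hD p hp) (hD q hq)⟩
      one_mem' := ⟨1, h1, h.one⟩ }
  refine ⟨{ E with inv_mem' := fun {a} ha => ?_ }, fun g => Iff.rfl⟩
  have := E.pow_mem ha (orderOf a - 1)
  rwa [show a ^ (orderOf a - 1) = a⁻¹ by
    rw [eq_inv_iff_mul_eq_one, ← pow_succ, Nat.sub_add_cancel (orderOf_pos a), pow_orderOf_eq_one]]
    at this

end Hm

end H20.L43
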