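import Mathlib
import Cfsg.Agent.Lib.P3L.Defs

/-! Extraspecial groups of order `3⁵`: the commutator form, symplectic bases, matrices. -/

set_option autoImplicit false
set_option linter.unusedSectionVars false

namespace H20.L43

open Subgroup M4

variable {G : Type*} [Group G]

/-- powers with exponent modulo three -/
def pw (x : G) (k : ZMod 3) : G := x ^ k.val

/-- vectors -/
abbrev V4 := ZMod 3 × ZMod 3 × ZMod 3 × ZMod 3

/-- matrix times vector -/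
def mv (m : M4) (v : V4) : V4 :=
  (m.a11 * v.1 + m.a12 * v.2.1 + m.a13 * v.2.2.1 + m.a14 * v.2.2.2,
   m.a21 * v.1 + m.a22 * v.2.1 + m.a23 * v.2.2.1 + m.a24 * v.2.2.2,
   m.a31 * v.1 + m.a32 * v.2.1 + m.a33 * v.2.2.1 + m.a34 * v.2.2.2,
   m.a41 * v.1 + m.a42 * v.2.1 + m.a43 * v.2.2.1 + m.a44 * v.2.2.2)

/-- the matrix with given columns -/
def cols (a b c d : V4) : M4 :=
  ⟨a.1, b.1, c.1, d.1, a.2.1, b.2.1, c.2.1, d.2.1, a.2.2.1, b.2.2.1, c.2.2.1, d.2.2.1,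
    a.2.2.2, b.2.2.2, c.2.2.2, d.2.2.2⟩

/-- the symplectic form -/
def fm (u v : V4) : ZMod 3 := u.1 * v.2.2.1 + u.2.1 * v.2.2.2 - u.2.2.1 * v.1 - u.2.2.2 * v.2.1

theorem force_eq_A1 : True := by
  have := @pw.eq_1.{0}
  have := @mv.eq_1
  have := @cols.eq_1
  have := @fm.eq_1
  trivial

theorem zm3 (k : ZMod 3) : k = 0 ∨ k = 1 ∨ k = -1 := by revert k; decide

@[simp] theorem pw_zero (x : G) : pw x 0 = 1 := pow_zero x

@[simp] theorem pw_one (x : G) : pw x 1 = x := pow_one x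

theorem pw_add {x : G} (h : x ^ 3 = 1) (k l : ZMod 3) : pw x (k + l) = pw x k * pw x l := by
  rw [pw, pw, pw, ← pow_add, ZMod.val_add, ← pow_eq_pow_mod _ h]

theorem pw_neg {x : G} (h : x ^ 3 = 1) (k : ZMod 3) : pw x (-k) = (pw x k)⁻¹ :=
  eq_inv_of_mul_eq_one_left (by rw [← pw_add h, neg_add_cancel, pw_zero])

theorem pw_neg_one {x : G} (h : x ^ 3 = 1) : pw x (-1) = x⁻¹ := by rw [pw_neg h, pw_one]

theorem pw_conj (g x : G) (k : ZMod 3) : g * pw x k * g⁻¹ = pw (g * x * g⁻¹) k := by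
  simp [pw]

theorem pw_inv {x : G} (h : x ^ 3 = 1) (k : ZMod 3) : pw x⁻¹ k = pw x (-k) := by
  rw [pw_neg h, pw, pw, inv_pow]

theorem pw_pw {x : G} (h : x ^ 3 = 1) (k l : ZMod 3) : pw (pw x k) l = pw x (k * l) := by
  rw [pw, pw, pw, ← pow_mul, ZMod.val_mul, ← pow_eq_pow_mod _ h]

theorem pw_mem {K : Subgroup G} {x : G} (h : x ∈ K) (k : ZMod 3) : pw x k ∈ K := pow_mem h _

theorem pw_comm {x y : G} (h : x * y = y * x) (k : ZMod 3) : pw x k * y = y * pw x k :=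
  (Commute.pow_left h _ :)

theorem pw_mul {x y : G} (h : x * y = y * x) (k : ZMod 3) : pw (x * y) k = pw x k * pw y k :=
  Commute.mul_pow h _

theorem pw_eq_one {x : G} (h : x ^ 3 = 1) (h1 : x ≠ 1) {k : ZMod 3} (e : pw x k = 1) : k = 0 := by
  rcases zm3 k with rfl | rfl | rfl
  · rfl
  · exact absurd (by simpa using e) h1
  · exact absurd (by simpa [pw_neg_one h] using e) h1

theorem pw_inj {x : G} (h : x ^ 3 = 1) (h1 : x ≠ 1) {k l : ZMod 3} (e : pw x k = pw x l) : k = l :=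
  sub_eq_zero.1 (pw_eq_one h h1 (by rw [sub_eq_add_neg, pw_add h, pw_neg h, e, mul_inv_cancel]))

theorem mem_zp {x g : G} (h : x ^ 3 = 1) : g ∈ zpowers x ↔ ∃ k, pw x k = g := by
  refine ⟨?_, fun ⟨k, e⟩ => e ▸ pw_mem (mem_zpowers x) k⟩
  rintro ⟨n, rfl⟩
  refine ⟨n, ?_⟩
  have := zpow_eq_zpow_emod' n h
  change _ = x ^ n
  rw [this, pw, ← zpow_natCast, ZMod.val_intCast]

theorem mv_mul (m n : M4) (v : V4) : mv (m * n) v = mv m (mv n v) := by
  simp only [mv, Prod.ext_iff]; simp; refine ⟨?_, ?_, ?_, ?_⟩ <;> ring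

theorem mv_add (m : M4) (u v : V4) : mv m (u + v) = mv m u + mv m v := by
  simp only [mv, Prod.ext_iff]; simp; refine ⟨?_, ?_, ?_, ?_⟩ <;> ring

theorem mv_neg (m : M4) (u : V4) : mv m (-u) = -mv m u := by
  simp only [mv, Prod.ext_iff]; simp; refine ⟨?_, ?_, ?_, ?_⟩ <;> ring

theorem mv_one (u : V4) : mv 1 u = u := by simp [mv]

theorem mv_ext {m n : M4} (h : ∀ v, mv m v = mv n v) : m = n := by
  have h1 := h (1, 0, 0, 0)
  have h2 := h (0, 1, 0, 0)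
  have h3 := h (0, 0, 1, 0)
  have h4 := h (0, 0, 0, 1)
  simp [mv] at h1 h2 h3 h4
  ext <;> simp [*]

/-- an extraspecial group of exponent three with its commutator form -/
structure Ex (z : G) (Q : Subgroup G) (β : G → G → ZMod 3) : Prop where
  z1 : z ≠ 1
  zQ : z ∈ Q
  q3 : ∀ q ∈ Q, q ^ 3 = 1
  card : Nat.card Q = 243
  zc : ∀ q ∈ Q, q * z = z * q
  com : ∀ a ∈ Q, ∀ b ∈ Q, a * b = pw z (β a b) * (b * a)
  nd : ∀ a ∈ Q, (∀ b ∈ Q, β a b = 0) → a ∈ zpowers z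

namespace Ex

variable {z : G} {Q : Subgroup G} {β : G → G → ZMod 3}

theorem z3 (h : Ex z Q β) : z ^ 3 = 1 := h.q3 z h.zQ

theorem pc (h : Ex z Q β) {q : G} (hq : q ∈ Q) (k : ZMod 3) : pw z k * q = q * pw z k :=
  pw_comm (h.zc q hq).symm k

theorem zle (h : Ex z Q β) {q : G} (hq : q ∈ zpowers z) : q ∈ Q := zpowers_le.2 h.zQ hq

theorem eq_of (h : Ex z Q β) {a b : G} (ha : a ∈ Q) (hb : b ∈ Q) {k : ZMod 3}
    (e : a * b = pw z k * (b * a)) : β a b = k :=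
  pw_inj h.z3 h.z1 (mul_right_cancel ((h.com a ha b hb).symm.trans e))

theorem comm_iff (h : Ex z Q β) {a b : G} (ha : a ∈ Q) (hb : b ∈ Q) :
    a * b = b * a ↔ β a b = 0 :=
  ⟨fun e => h.eq_of ha hb (by simpa using e), fun e => by simpa [e] using h.com a ha b hb⟩

theorem conj (h : Ex z Q β) {a b : G} (ha : a ∈ Q) (hb : b ∈ Q) :
    a * b * a⁻¹ = pw z (β a b) * b := by rw [h.com a ha b hb]; group

theorem self (h : Ex z Q β) {a : G} (ha : a ∈ Q) : β a a = 0 := (h.comm_iff ha ha).1 rfl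

theorem anti (h : Ex z Q β) {a b : G} (ha : a ∈ Q) (hb : b ∈ Q) : β b a = -β a b :=
  h.eq_of hb ha (by rw [pw_neg h.z3, h.com a ha b hb]; group)

theorem mul_l (h : Ex z Q β) {a b c : G} (ha : a ∈ Q) (hb : b ∈ Q) (hc : c ∈ Q) :
    β (a * b) c = β a c + β b c :=
  h.eq_of (mul_mem ha hb) hc (by
    rw [mul_assoc, h.com b hb c hc, ← mul_assoc, ← h.pc ha, mul_assoc, ← mul_assoc a,
      h.com a ha c hc, add_comm, pw_add h.z3]; group)

theorem mul_r (h : Ex z Q β) {a b c : G} (ha : a ∈ Q) (hb : b ∈ Q) (hc : c ∈ Q) :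
    β c (a * b) = β c a + β c b := by
  rw [h.anti (mul_mem ha hb) hc, h.mul_l ha hb hc, h.anti ha hc, h.anti hb hc]; ring

theorem z_l (h : Ex z Q β) {a c : G} (ha : a ∈ zpowers z) (hc : c ∈ Q) : β a c = 0 := by
  obtain ⟨k, rfl⟩ := (mem_zp h.z3).1 ha
  exact (h.comm_iff (pw_mem h.zQ k) hc).1 (h.pc hc k)

theorem z_r (h : Ex z Q β) {a c : G} (ha : a ∈ zpowers z) (hc : c ∈ Q) : β c a = 0 := by
  rw [h.anti (h.zle ha) hc, h.z_l ha hc, neg_zero]

theorem inv_l (h : Ex z Q β) {a c : G} (ha : a ∈ Q) (hc : c ∈ Q) : β a⁻¹ c = -β a c := by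
  have := h.mul_l (inv_mem ha) ha hc
  rw [inv_mul_cancel, h.z_l (one_mem _) hc] at this
  linear_combination -this

theorem inv_r (h : Ex z Q β) {a c : G} (ha : a ∈ Q) (hc : c ∈ Q) : β c a⁻¹ = -β c a := by
  rw [h.anti (inv_mem ha) hc, h.inv_l ha hc, h.anti ha hc]

theorem pw_l (h : Ex z Q β) {a c : G} (ha : a ∈ Q) (hc : c ∈ Q) (k : ZMod 3) :
    β (pw a k) c = k * β a c := by
  rcases zm3 k with rfl | rfl | rfl
  · simp [h.z_l (one_mem _) hc]
  · simp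
  · rw [pw_neg_one (h.q3 a ha), h.inv_l ha hc]; ring

theorem pw_r (h : Ex z Q β) {a c : G} (ha : a ∈ Q) (hc : c ∈ Q) (k : ZMod 3) :
    β c (pw a k) = k * β c a := by
  rw [h.anti (pw_mem ha k) hc, h.pw_l ha hc, h.anti ha hc]; ring

theorem cj (h : Ex z Q β) {g : G} {ε : ZMod 3} (hg : g * z * g⁻¹ = pw z ε)
    (hn : ∀ q ∈ Q, g * q * g⁻¹ ∈ Q) {a b : G} (ha : a ∈ Q) (hb : b ∈ Q) :
    β (g * a * g⁻¹) (g * b * g⁻¹) = ε * β a b :=
  h.eq_of (hn a ha) (hn b hb) (by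
    rw [← pw_pw h.z3, ← hg, ← pw_conj]
    calc _ = g * (a * b) * g⁻¹ := by group
      _ = _ := by rw [h.com a ha b hb]; group)

theorem dual1 (h : Ex z Q β) {a : G} (ha : a ∈ Q) (h1 : a ∉ zpowers z) : ∃ b ∈ Q, β a b = 1 := by
  by_contra! e
  refine h1 (h.nd a ha fun b hb => ?_)
  rcases zm3 (β a b) with f | f | f
  · exact f
  · exact absurd f (e b hb)
  · exact absurd (by rw [h.inv_r hb ha, f, neg_neg]) (e _ (inv_mem hb))

theorem dual2 (h : Ex z Q β) {a b : G} (ha : a ∈ Q) (hb : b ∈ Q) (h1 : a ∉ zpowers z)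
    (h2 : ∀ k, b * pw a k ∉ zpowers z) :
    ∃ a' ∈ Q, ∃ b' ∈ Q, β a a' = 1 ∧ β b a' = 0 ∧ β a b' = 0 ∧ β b b' = 1 := by
  obtain ⟨u, hu, e1⟩ := h.dual1 ha h1
  obtain ⟨v, hv, e2⟩ := h.dual1 (mul_mem hb (pw_mem ha _)) (h2 (-β b u))
  rw [h.mul_l hb (pw_mem ha _) hv, h.pw_l ha hv] at e2
  have hw := mul_mem hv (pw_mem hu (-β a v))
  have f1 : β a (v * pw u (-β a v)) = 0 := by
    rw [h.mul_r hv (pw_mem hu _) ha, h.pw_r hu ha, e1]; ring
  have f2 : β b (v * pw u (-β a v)) = 1 := by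
    rw [h.mul_r hv (pw_mem hu _) hb, h.pw_r hu hb]; linear_combination e2
  refine ⟨_, mul_mem hu (pw_mem hw (-β b u)), _, hw, ?_, ?_, f1, f2⟩
  · rw [h.mul_r hu (pw_mem hw _) ha, h.pw_r hw ha, e1, f1]; ring
  · rw [h.mul_r hu (pw_mem hw _) hb, h.pw_r hw hb, f2]; ring

end Ex

/-- a symplectic basis -/
structure Sb (z : G) (Q : Subgroup G) (β : G → G → ZMod 3) (a b c d : G) : Prop
    extends Ex z Q β where
  ha : a ∈ Q
  hb : b ∈ Q
  hc : c ∈ Q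
  hd : d ∈ Q
  ab : β a b = 0
  ac : β a c = 1
  ad : β a d = 0
  bc : β b c = 0
  bd : β b d = 1
  cd : β c d = 0

/-- coordinates -/
def co (β : G → G → ZMod 3) (a b c d q : G) : V4 := (β q c, β q d, β a q, β b q)

/-- the element with given coordinates -/
def ve (a b c d : G) (v : V4) : G := pw a v.1 * pw b v.2.1 * pw c v.2.2.1 * pw d v.2.2.2

/-- the matrix of a normalising element -/
def mt (β : G → G → ZMod 3) (a b c d g : G) : M4 :=
  cols (co β a b c d (g * a * g⁻¹)) (co β a b c d (g * b * g⁻¹)) (co β a b c d (g * c * g⁻¹))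
    (co β a b c d (g * d * g⁻¹))

theorem force_eq_co : True := by
  have := @co.eq_1.{0}
  have := @ve.eq_1.{0}
  have := @mt.eq_1.{0}
  trivial

namespace Sb

variable {z : G} {Q : Subgroup G} {β : G → G → ZMod 3} {a b c d : G}

theorem co_mul (h : Sb z Q β a b c d) {p q : G} (hp : p ∈ Q) (hq : q ∈ Q) :
    co β a b c d (p * q) = co β a b c d p + co β a b c d q := by
  simp only [co, h.mul_l hp hq h.hc, h.mul_l hp hq h.hd, h.mul_r hp hq h.ha, h.mul_r hp hq h.hb,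
    Prod.mk_add_mk]

theorem co_inv (h : Sb z Q β a b c d) {p : G} (hp : p ∈ Q) :
    co β a b c d p⁻¹ = -co β a b c d p := by
  simp only [co, h.inv_l hp h.hc, h.inv_l hp h.hd, h.inv_r hp h.ha, h.inv_r hp h.hb, Prod.neg_mk]

theorem co_pw (h : Sb z Q β a b c d) {p : G} (hp : p ∈ Q) (k : ZMod 3) :
    co β a b c d (pw p k) = k • co β a b c d p := by
  simp only [co, h.pw_l hp h.hc, h.pw_l hp h.hd, h.pw_r hp h.ha, h.pw_r hp h.hb, Prod.smul_mk,
    smul_eq_mul]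

theorem co_z (h : Sb z Q β a b c d) {p : G} (hp : p ∈ zpowers z) : co β a b c d p = 0 := by
  simp only [co, h.z_l hp h.hc, h.z_l hp h.hd, h.z_r hp h.ha, h.z_r hp h.hb]; rfl

theorem co_a (h : Sb z Q β a b c d) : co β a b c d a = (1, 0, 0, 0) := by
  simp only [co, h.ac, h.ad, h.self h.ha, h.anti h.ha h.hb, h.ab, neg_zero]

theorem co_b (h : Sb z Q β a b c d) : co β a b c d b = (0, 1, 0, 0) := by
  simp only [co, h.bc, h.bd, h.self h.hb, h.ab]

theorem co_c (h : Sb z Q β a b c d) : co β a b c d c = (0, 0, 1, 0) := by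
  simp only [co, h.cd, h.ac, h.self h.hc, h.bc]

theorem co_d (h : Sb z Q β a b c d) : co β a b c d d = (0, 0, 0, 1) := by
  simp only [co, h.anti h.hc h.hd, h.cd, h.ad, h.self h.hd, h.bd, neg_zero]

theorem ve_mem (h : Sb z Q β a b c d) (v : V4) : ve a b c d v ∈ Q :=
  mul_mem (mul_mem (mul_mem (pw_mem h.ha _) (pw_mem h.hb _)) (pw_mem h.hc _)) (pw_mem h.hd _)

theorem co_four (h : Sb z Q β a b c d) {p q r s : G} (hp : p ∈ Q) (hq : q ∈ Q) (hr : r ∈ Q)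
    (hs : s ∈ Q) (v : V4) : co β a b c d (ve p q r s v) =
      mv (cols (co β a b c d p) (co β a b c d q) (co β a b c d r) (co β a b c d s)) v := by
  rw [ve, h.co_mul (mul_mem (mul_mem (pw_mem hp _) (pw_mem hq _)) (pw_mem hr _)) (pw_mem hs _),
    h.co_mul (mul_mem (pw_mem hp _) (pw_mem hq _)) (pw_mem hr _),
    h.co_mul (pw_mem hp _) (pw_mem hq _), h.co_pw hp, h.co_pw hq, h.co_pw hr, h.co_pw hs]
  simp only [mv, cols, Prod.ext_iff]; simp; refine ⟨?_, ?_, ?_, ?_⟩ <;> ring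

theorem co_ve (h : Sb z Q β a b c d) (v : V4) : co β a b c d (ve a b c d v) = v := by
  rw [h.co_four h.ha h.hb h.hc h.hd, h.co_a, h.co_b, h.co_c, h.co_d]
  simp [mv, cols]

variable [Finite G]

theorem surj (h : Sb z Q β a b c d) {q : G} (hq : q ∈ Q) :
    ∃ k, q = ve a b c d (co β a b c d q) * pw z k := by
  let F : V4 × ZMod 3 → Q := fun p => ⟨ve a b c d p.1 * pw z p.2, mul_mem (h.ve_mem _) (pw_mem h.zQ _)⟩
  have c : ∀ p, co β a b c d (F p) = p.1 := fun p => by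
    rw [h.co_mul (h.ve_mem _) (pw_mem h.zQ _), h.co_ve, h.co_z (pw_mem (mem_zpowers z) _), add_zero]
  have i : Function.Injective F := fun p p' e => by
    have e1 : p.1 = p'.1 := by rw [← c, e, c]
    have e2 := congrArg Subtype.val e
    simp only [F, e1, mul_right_inj] at e2
    exact Prod.ext e1 (pw_inj h.z3 h.z1 e2)
  obtain ⟨p, e⟩ := (i.bijective_of_nat_card_le (by rw [h.card]; simp)).2 ⟨q, hq⟩
  have := c p
  rw [e] at this
  exact ⟨p.2, by rw [this]; exact (congrArg Subtype.val e).symm⟩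

theorem eq_of_co (h : Sb z Q β a b c d) {p q : G} (hp : p ∈ Q) (hq : q ∈ Q)
    (e : co β a b c d p = co β a b c d q) : ∃ k, p = q * pw z k := by
  obtain ⟨k, e1⟩ := h.surj hp
  obtain ⟨l, e2⟩ := h.surj hq
  refine ⟨-l + k, ?_⟩
  rw [e1, e, pw_add h.z3, pw_neg h.z3]
  nth_rewrite 2 [e2]
  group

theorem form (h : Sb z Q β a b c d) {p q : G} (hp : p ∈ Q) (hq : q ∈ Q) :
    β p q = fm (co β a b c d p) (co β a b c d q) := by
  obtain ⟨k, e⟩ := h.surj hp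
  nth_rewrite 1 [e]
  rw [h.mul_l (h.ve_mem _) (pw_mem h.zQ _) hq, h.z_l (pw_mem (mem_zpowers z) _) hq, ve,
    h.mul_l (mul_mem (mul_mem (pw_mem h.ha _) (pw_mem h.hb _)) (pw_mem h.hc _)) (pw_mem h.hd _) hq,
    h.mul_l (mul_mem (pw_mem h.ha _) (pw_mem h.hb _)) (pw_mem h.hc _) hq,
    h.mul_l (pw_mem h.ha _) (pw_mem h.hb _) hq, h.pw_l h.ha hq, h.pw_l h.hb hq, h.pw_l h.hc hq,
    h.pw_l h.hd hq, h.anti hq h.hc, h.anti hq h.hd]
  simp only [fm, co]; ring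

theorem co_cj (h : Sb z Q β a b c d) {g : G} (hg : g * z * g⁻¹ ∈ zpowers z)
    (hn : ∀ q ∈ Q, g * q * g⁻¹ ∈ Q) {q : G} (hq : q ∈ Q) :
    co β a b c d (g * q * g⁻¹) = mv (mt β a b c d g) (co β a b c d q) := by
  obtain ⟨k, e⟩ := h.surj hq
  nth_rewrite 1 [e]
  rw [mt, ← h.co_four (hn _ h.ha) (hn _ h.hb) (hn _ h.hc) (hn _ h.hd), ← conj_mul,
    h.co_mul (hn _ (h.ve_mem _)) (hn _ (pw_mem h.zQ _)), pw_conj g z, h.co_z (pw_mem hg _),
    add_zero]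
  simp only [ve, ← pw_conj, conj_mul]

theorem mt_eq (h : Sb z Q β a b c d) {g : G} (hg : g * z * g⁻¹ ∈ zpowers z)
    (hn : ∀ q ∈ Q, g * q * g⁻¹ ∈ Q) {m : M4}
    (e : ∀ q ∈ Q, co β a b c d (g * q * g⁻¹) = mv m (co β a b c d q)) : mt β a b c d g = m :=
  mv_ext fun v => by rw [← h.co_ve v, ← h.co_cj hg hn (h.ve_mem v), e _ (h.ve_mem v)]

theorem mt_Q (h : Sb z Q β a b c d) {g : G} (hg : g ∈ Q) : mt β a b c d g = 1 :=
  h.mt_eq (by rw [h.zc g hg]; simp) (fun q hq => mul_mem (mul_mem hg hq) (inv_mem hg))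
    fun q hq => by
      rw [h.co_mul (mul_mem hg hq) (inv_mem hg), h.co_mul hg hq, h.co_inv hg, mv_one]; abel

theorem mt_fm (h : Sb z Q β a b c d) {g : G} {ε : ZMod 3} (hg : g * z * g⁻¹ = pw z ε)
    (hn : ∀ q ∈ Q, g * q * g⁻¹ ∈ Q) (u v : V4) :
    fm (mv (mt β a b c d g) u) (mv (mt β a b c d g) v) = ε * fm u v := by
  have hz : g * z * g⁻¹ ∈ zpowers z := hg ▸ pw_mem (mem_zpowers z) _
  rw [← h.co_ve u, ← h.co_ve v, ← h.co_cj hz hn (h.ve_mem u), ← h.co_cj hz hn (h.ve_mem v),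
    ← h.form (hn _ (h.ve_mem u)) (hn _ (h.ve_mem v)), h.cj hg hn (h.ve_mem u) (h.ve_mem v),
    h.form (h.ve_mem u) (h.ve_mem v)]

end Sb

end H20.L43
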