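import Mathlib
import Cfsg.Agent.Lib.P3L.Defs
import Cfsg.Agent.Lib.Stein.SLPres

/-! Package B: from two point stabiliser models to a homomorphism from `SL₄(3)`. -/

set_option autoImplicit false

namespace H20.L43

open Subgroup M4

namespace PB

variable {G : Type*} [Group G] {f f' : M4 → G} {c : Prop}

theorem z3 (a : ZMod 3) : a = 0 ∨ a = 1 ∨ a = -1 := by revert a; decide

theorem cmm (h : Md False c f) {m : M4} (hm : Pb m) {a b x y e k : ZMod 3}
    (q : f m * f (uu a b x y e k) = f (uu a b x y e k) * f m) :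
    m * uu a b x y e k = uu a b x y e k * m :=
  h.cj_of hm.dm (pb_uu ..).dm (pb_uu ..).dm (uu9 ..) (uu9 ..) (by rw [q, mul_inv_cancel_right])

theorem nz' (h : Md False c f) {g : G} (q : g * f (uu 0 0 1 0 0 0) = f (uu 0 0 1 0 0 0) * g) :
    ∃ m, Pb m ∧ f m = g :=
  h.nz g (by rw [zz, q, mul_inv_cancel_right]; exact mem_zpowers _)

theorem cenW (h : Md False c f) {g : G} (q1 : g * f (uu 1 0 0 0 0 0) = f (uu 1 0 0 0 0 0) * g)
    (q2 : g * f (uu 0 1 0 0 0 0) = f (uu 0 1 0 0 0 0) * g)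
    (q3 : g * f (uu 0 0 1 0 0 0) = f (uu 0 0 1 0 0 0) * g) :
    ∃ a b x, g = f (uu a b x 0 0 0) := by
  obtain ⟨m, hm, rfl⟩ := nz' h q3
  have e1 := cmm h hm q1
  have e2 := cmm h hm q2
  have e3 := cmm h hm q3
  refine ⟨m.a11 * m.a12, m.a11 * m.a13, m.a11 * m.a14, (h.eq_iff hm.dm (pb_uu ..).dm).2 ?_⟩
  obtain ⟨d1, d2, d3, d4⟩ := hm
  simp only [M4.ext_iff, det] at e1 e2 e3 d1 ⊢
  simp [uu] at e1 e2 e3 ⊢
  rcases z3 m.a11 with q | q | q <;> grind

theorem cenU (h : Md False c f) {g : G} (q1 : g * f (uu 0 0 1 0 0 0) = f (uu 0 0 1 0 0 0) * g)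
    (q2 : g * f (uu 0 0 0 0 1 0) = f (uu 0 0 0 0 1 0) * g) :
    ∃ b x y e k, g = f (uu 0 b x y e k) := by
  obtain ⟨m, hm, rfl⟩ := nz' h q1
  have e1 := cmm h hm q1
  have e2 := cmm h hm q2
  refine ⟨m.a11 * m.a13, m.a11 * m.a14, m.a11 * m.a23, m.a11 * m.a24, m.a11 * m.a34,
    (h.eq_iff hm.dm (pb_uu ..).dm).2 ?_⟩
  obtain ⟨d1, d2, d3, d4⟩ := hm
  simp only [M4.ext_iff, det] at e1 e2 d1 ⊢
  simp [uu] at e1 e2 ⊢
  rcases z3 m.a11 with q | q | q <;> grind

/-- `g` conjugates `f a` to `f b` -/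
structure Cj (f : M4 → G) (g : G) (a b : M4) : Prop where
  pa : Pb a
  pb : Pb b
  e : g * f a * g⁻¹ = f b

theorem Cj.mul (h : Hm False f) {g : G} {a b a' b' : M4} (p : Cj f g a b) (q : Cj f g a' b') :
    Cj f g (a * a') (b * b') :=
  ⟨p.pa.mul q.pa, p.pb.mul q.pb, by
    rw [h.mul _ _ p.pa.dm q.pa.dm, h.mul _ _ p.pb.dm q.pb.dm, ← p.e, ← q.e]; group⟩

theorem Cj.pow (h : Hm False f) {g : G} {a b : M4} (p : Cj f g a b) (n : ℕ) :
    Cj f g (a ^ n) (b ^ n) := by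
  induction n with
  | zero => exact ⟨pb_one, pb_one, by simp [h.one]⟩
  | succ n ih => rw [pow_succ, pow_succ]; exact ih.mul h p

theorem Cj.of (h : Hm False f) {m a b : M4} (hm : Pb m) (ha : Pb a) (hb : Pb b)
    (e : m * a = b * m) : Cj f (f m) a b := ⟨ha, hb, h.cj hm.dm ha.dm hb.dm e⟩

theorem Cj.trans {g g' : G} {a b x : M4} (q : Cj f g' b x) (p : Cj f g a b) :
    Cj f (g' * g) a x := ⟨p.pa, q.pb, by rw [← q.e, ← p.e]; group⟩

theorem Cj.inv {g : G} {a b : M4} (p : Cj f g a b) : Cj f g⁻¹ b a :=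
  ⟨p.pb, p.pa, by rw [← p.e]; group⟩

theorem Cj.cm {g : G} {a : M4} (p : Cj f g a a) : g * f a = f a * g :=
  mul_inv_eq_iff_eq_mul.1 p.e

theorem Cj.ofc {g : G} {a : M4} (ha : Pb a) (p : g * f a = f a * g) : Cj f g a a :=
  ⟨ha, ha, mul_inv_eq_iff_eq_mul.2 p⟩

theorem cjW (h : Hm False f) {g : G} {a b x : M4} (p : Cj f g (uu 0 0 1 0 0 0) a)
    (q : Cj f g (uu 0 0 0 0 1 0) b) (r : Cj f g (uu 0 0 0 0 0 1) x) (s e k : ZMod 3) :
    Cj f g (uu 0 0 s 0 e k) (a ^ s.val * b ^ e.val * x ^ k.val) := by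
  have : ∀ s e k : ZMod 3, uu 0 0 s 0 e k =
    uu 0 0 1 0 0 0 ^ s.val * uu 0 0 0 0 1 0 ^ e.val * uu 0 0 0 0 0 1 ^ k.val := by decide +kernel
  rw [this]
  exact ((p.pow h _).mul h (q.pow h _)).mul h (r.pow h _)

/-- the group `W'` is its own centraliser -/
def SC (f : M4 → G) : Prop := ∀ g : G, (∀ x e k, g * f (uu 0 0 x 0 e k) = f (uu 0 0 x 0 e k) * g) →
  ∃ x e k, g = f (uu 0 0 x 0 e k)

/-- `g` acts on `f S` as `w` acts on `S` -/
def Ac (f : M4 → G) (S : M4 → Prop) (g : G) (w : M4) : Prop :=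
  ∀ a, S a → ∃ b, S b ∧ w * a = b * w ∧ g * f a * g⁻¹ = f b

/-- the matrices of `W'` -/
def S1 (a : M4) : Prop := ∃ x e k, a = uu 0 0 x 0 e k

/-- the matrices of `W'` and the diagonal matrices -/
def S2 (a : M4) : Prop := S1 a ∨ ∃ p q r s, p * q * r * s = 1 ∧ a = dg p q r s

theorem force_eq_pb : True := by
  have := @SC.eq_1.{0}
  have := @Ac.eq_1.{0}
  have := @S1.eq_1
  have := @S2.eq_1
  trivial

theorem exN {c' : Prop} (h : Md False c f) (h' : Md False c' f') (hz : f' zz = f zz)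
    (hW : ∀ a b c, ∃ x e k, f' (uu a b c 0 0 0) = f (uu 0 0 x 0 e k)) :
    SC f ∧ ∃ n : G, ∀ x e k, Cj f n (uu 0 0 x 0 e k) (uu 0 0 e 0 (-x) k) := by
  refine ⟨fun g hg => ?_, ?_⟩
  · have : ∀ a b x, g * f' (uu a b x 0 0 0) = f' (uu a b x 0 0 0) * g := fun a b x => by
      obtain ⟨x, e, k, q⟩ := hW a b x
      rw [q, hg]
    obtain ⟨a, b, x, rfl⟩ := cenW h' (this ..) (this ..) (this ..)
    exact hW a b x
  choose X E K hX using hW
  have inj : Function.Injective fun v : ZMod 3 × ZMod 3 × ZMod 3 =>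
      (X v.1 v.2.1 v.2.2, E v.1 v.2.1 v.2.2, K v.1 v.2.1 v.2.2) := by
    rintro ⟨a, b, x⟩ ⟨a', b', x'⟩ q
    simp only [Prod.mk.injEq] at q
    have := h'.uu_inj ((hX a b x).trans (by rw [q.1, q.2.1, q.2.2, ← hX]))
    simp [this]
  have sur := Finite.injective_iff_surjective.1 inj
  obtain ⟨⟨a, b, x⟩, q⟩ := sur (0, 1, 0)
  obtain ⟨⟨a', b', x'⟩, q'⟩ := sur (0, 0, 1)
  simp only [Prod.mk.injEq] at q q'
  have p := hX a b x
  have p' := hX a' b' x'
  rw [q.1, q.2.1, q.2.2] at p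
  rw [q'.1, q'.2.1, q'.2.2] at p'
  rw [zz] at hz
  have lin : ∀ i j l : ℕ, f' (uu (i * a + j * a') (i * b + j * b') (i * x + j * x' + l) 0 0 0) =
      f (uu 0 0 l 0 i j) := by
    intro i j l
    induction l with
    | zero =>
      induction j with
      | zero =>
        induction i with
        | zero => simp [uu_zero, h.one, h'.one]
        | succ i ih =>
          have := congrArg₂ (· * ·) ih p
          simp only [h.uu_mul, h'.uu_mul] at this
          simpa [add_mul] using this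
      | succ j ih =>
        have := congrArg₂ (· * ·) ih p'
        simp only [h.uu_mul, h'.uu_mul] at this
        simpa [add_mul, add_assoc] using this
    | succ l ih =>
      have := congrArg₂ (· * ·) ih hz
      simp only [h.uu_mul, h'.uu_mul] at this
      simpa [add_mul, add_assoc] using this
  have hd : a * b' - a' * b ≠ 0 := fun hd => by
    have : ∀ a b a' b' : ZMod 3, a * b' - a' * b = 0 → ∃ i j : ZMod 3, (i ≠ 0 ∨ j ≠ 0) ∧
      i * a + j * a' = 0 ∧ i * b + j * b' = 0 := by decide +kernel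
    obtain ⟨i, j, h0, h1, h2⟩ := this _ _ _ _ hd
    have := lin i.val j.val (-(i * x + j * x')).val
    simp only [ZMod.natCast_zmod_val, h1, h2, add_neg_cancel] at this
    rw [uu_zero, h'.one, ← h.one, ← uu_zero] at this
    have := h.uu_inj this
    tauto
  obtain ⟨δ, hδ⟩ : ∃ δ, δ = a * b' - a' * b := ⟨_, rfl⟩
  have δ2 : δ * δ = 1 := by rcases z3 δ with q | q | q <;> grind
  let B : M4 := ⟨δ, 0, 0, 0, 0, 0, 0, 1, 0, a, b, x, 0, a', b', x'⟩
  let N : M4 := ⟨1, 0, 0, 0, 0, 0, 1, 0, 0, -1, 0, 0, 0, 0, 0, 1⟩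
  have hB : Pb B := by simp [Pb, B, det]; grind
  have hN : Pb N := by decide
  have k1 : Cj f' (f' B) (uu 0 0 1 0 0 0) (uu δ 0 0 0 0 0) :=
    .of h'.toHm hB (pb_uu ..) (pb_uu ..) (by ext <;> simp [B, uu])
  have k2 : Cj f' (f' B) (uu a b x 0 0 0) (uu 0 δ 0 0 0 0) :=
    .of h'.toHm hB (pb_uu ..) (pb_uu ..) (by ext <;> simp [B, uu])
  have k2' : Cj f' (f' B) (uu (-a) (-b) (-x) 0 0 0) (uu 0 (-δ) 0 0 0 0) :=
    .of h'.toHm hB (pb_uu ..) (pb_uu ..) (by ext <;> simp [B, uu])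
  have k3 : Cj f' (f' B) (uu a' b' x' 0 0 0) (uu 0 0 δ 0 0 0) :=
    .of h'.toHm hB (pb_uu ..) (pb_uu ..) (by ext <;> simp [B, uu])
  have l1 : Cj f' (f' N) (uu δ 0 0 0 0 0) (uu 0 (-δ) 0 0 0 0) :=
    .of h'.toHm hN (pb_uu ..) (pb_uu ..) (by ext <;> simp [N, uu])
  have l2 : Cj f' (f' N) (uu 0 δ 0 0 0 0) (uu δ 0 0 0 0 0) :=
    .of h'.toHm hN (pb_uu ..) (pb_uu ..) (by ext <;> simp [N, uu])
  have l3 : Cj f' (f' N) (uu 0 0 δ 0 0 0) (uu 0 0 δ 0 0 0) :=
    .of h'.toHm hN (pb_uu ..) (pb_uu ..) (by ext <;> simp [N, uu])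
  have m1 := (k2'.inv.trans (l1.trans k1)).e
  have m2 := (k1.inv.trans (l2.trans k2)).e
  have m3 := (k3.inv.trans (l3.trans k3)).e
  have p2 : f' (uu (-a) (-b) (-x) 0 0 0) = f (uu 0 0 0 0 (-1) 0) := by
    have := congrArg (·⁻¹) p
    simpa [h.uu_inv, h'.uu_inv] using this
  rw [hz, p2] at m1
  rw [hz, p] at m2
  rw [p'] at m3
  refine ⟨(f' B)⁻¹ * (f' N * f' B), fun s e k => ?_⟩
  have := cjW h.toHm ⟨pb_uu .., pb_uu .., m1⟩ ⟨pb_uu .., pb_uu .., m2⟩ ⟨pb_uu .., pb_uu .., m3⟩ s e k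
  have q : ∀ s e k : ZMod 3, uu 0 0 0 0 (-1) 0 ^ s.val * uu 0 0 1 0 0 0 ^ e.val *
    uu 0 0 0 0 0 1 ^ k.val = uu 0 0 e 0 (-s) k := by decide +kernel
  rwa [q] at this

variable {S : M4 → Prop} {g g' : G} {w w' : M4}

theorem Ac.mul (p : Ac f S g w) (q : Ac f S g' w') : Ac f S (g * g') (w * w') := fun a ha => by
  obtain ⟨b, hb, e1, e2⟩ := q a ha
  obtain ⟨x, hx, e3, e4⟩ := p b hb
  exact ⟨x, hx, by rw [mul_assoc, e1, ← mul_assoc, e3, mul_assoc], by rw [← e4, ← e2]; group⟩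

theorem Ac.neg (p : Ac f S g w) : Ac f S g (-w) := fun a ha => by
  obtain ⟨b, hb, e1, e2⟩ := p a ha
  exact ⟨b, hb, by rw [neg_mul, e1, mul_neg], e2⟩

theorem Ac.cen (p : Ac f S g w) (q : Ac f S g' w) (hw : w.det = 1) {a : M4} (ha : S a) :
    g'⁻¹ * g * f a = f a * (g'⁻¹ * g) := by
  obtain ⟨b, -, e1, e2⟩ := p a ha
  obtain ⟨x, -, e3, e4⟩ := q a ha
  obtain rfl : b = x := by
    rw [← mul_one b, ← mul_adj hw, ← mul_assoc, ← e1, e3, mul_assoc, mul_adj hw, mul_one]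
  calc g'⁻¹ * g * f a = g'⁻¹ * (g * f a * g⁻¹) * g := by group
    _ = g'⁻¹ * (g' * f a * g'⁻¹) * g := by rw [e2, e4]
    _ = _ := by group

theorem Ac.of (h : Hm False f) (hS : ∀ a, S a → Pb a) {m : M4} (hm : Pb m)
    (q : ∀ a, S a → ∃ b, S b ∧ m * a = b * m) : Ac f S (f m) m := fun a ha => by
  obtain ⟨b, hb, e⟩ := q a ha
  exact ⟨b, hb, e, h.cj hm.dm (hS a ha).dm (hS b hb).dm e⟩

theorem S1.pb (a : M4) (h : S1 a) : Pb a := by
  obtain ⟨x, e, k, rfl⟩ := h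
  exact pb_uu ..

theorem pb_dg {p q r s : ZMod 3} (e : p * q * r * s = 1) : Pb (dg p q r s) := by
  simp [Pb, dg, det, e]

theorem S2.pb (a : M4) (h : S2 a) : Pb a := by
  rcases h with h | ⟨p, q, r, s, e, rfl⟩
  · exact h.pb
  · exact pb_dg e

theorem pb_tt : Pb tt := by decide
theorem pb_rr : Pb rr := by decide
theorem pb_n2 : Pb n2 := by decide
theorem pb_n3 : Pb n3 := by decide

theorem Ac.w1 (hC : SC f) (p : Ac f S1 g w) (q : Ac f S1 g' w) (hw : w.det = 1) :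
    ∃ x e k, g = g' * f (uu 0 0 x 0 e k) := by
  obtain ⟨x, e, k, r⟩ := hC _ fun x e k => p.cen q hw ⟨x, e, k, rfl⟩
  exact ⟨x, e, k, by rw [← r, mul_inv_cancel_left]⟩

theorem rW (h : Hm False f) (b x y e k : ZMod 3) :
    f rr * f (uu 0 b x y e k) = f (uu 0 (-b) (-x) (-y) (-e) k) * f rr :=
  mul_inv_eq_iff_eq_mul.1 (h.cj pb_rr.dm (pb_uu ..).dm (pb_uu ..).dm
    (by ext <;> simp [rr, dg, uu]))

theorem tW (h : Hm False f) (b x y e k : ZMod 3) :
    f tt * f (uu 0 b x y e k) = f (uu 0 (-b) x y (-e) (-k)) * f tt :=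
  mul_inv_eq_iff_eq_mul.1 (h.cj pb_tt.dm (pb_uu ..).dm (pb_uu ..).dm
    (by ext <;> simp [tt, dg, uu]))

theorem key (h : Hm False f) (hC : SC f)
    (p : ∀ x e k, g * f (uu 0 0 x 0 e k) = f (uu 0 0 x 0 e k) * g)
    (pt : g * f tt = f tt * g) (pr : g * f rr = f rr * g) : g = 1 := by
  obtain ⟨x, e, k, rfl⟩ := hC _ p
  rw [tW h, mul_left_inj] at pt
  rw [rW h, mul_left_inj] at pr
  have a := h.uu_inj pt
  have b := h.uu_inj pr
  obtain rfl : x = 0 := by grind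
  obtain rfl : e = 0 := by grind
  obtain rfl : k = 0 := by grind
  rw [uu_zero, h.one]

theorem Ac.eq (h : Hm False f) (hC : SC f) (p : Ac f S2 g w) (q : Ac f S2 g' w)
    (hw : w.det = 1) : g = g' := by
  have := key h hC (fun x e k => p.cen q hw (Or.inl ⟨x, e, k, rfl⟩))
    (p.cen q hw (Or.inr ⟨_, _, _, _, by decide, rfl⟩))
    (p.cen q hw (Or.inr ⟨_, _, _, _, by decide, rfl⟩))
  rw [inv_mul_eq_one] at this
  exact this.symm

/-- `n` acts on `W'` as `n1` does -/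
abbrev AW (f : M4 → G) (n : G) : Prop :=
  ∀ x e k, Cj f n (uu 0 0 x 0 e k) (uu 0 0 e 0 (-x) k)

theorem AW.ac {n : G} (p : AW f n) : Ac f S1 n n1 := by
  rintro _ ⟨x, e, k, rfl⟩
  exact ⟨_, ⟨_, _, _, rfl⟩, by ext <;> simp [n1, uu], (p x e k).e⟩

theorem AW.mul (h : Hm False f) {n : G} (p : AW f n) (a b y : ZMod 3) :
    AW f (n * f (uu 0 0 a 0 b y)) := fun x e k =>
  (p x e k).trans (.of h (pb_uu ..) (pb_uu ..) (pb_uu ..) (by ext <;> simp [uu] <;> ring))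

theorem ac_dg (h : Hm False f) {p q r s : ZMod 3} (e : p * q * r * s = 1) :
    Ac f S1 (f (dg p q r s)) (dg p q r s) := by
  refine Ac.of h S1.pb (pb_dg e) ?_
  rintro _ ⟨x, y, k, rfl⟩
  have : s * s = 1 := by rcases z3 s with q | q | q <;> grind
  exact ⟨_, ⟨p * x * s, q * y * s, r * k * s, rfl⟩, by ext <;> simp [dg, uu] <;> grind⟩

theorem adjA {n r w w' : G} (q : n * r = r * n * w) (r2 : r * r = 1) (e : r * w = w' * r) :
    w * w' = 1 := by
  have e' : w * r = r * w' := by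
    calc w * r = r * r * w * r := by rw [r2, one_mul]
      _ = r * w' * (r * r) := by rw [mul_assoc r r w, e]; simp only [mul_assoc]
      _ = _ := by rw [r2, mul_one]
  have : n * (w * w') = n * 1 := by
    calc n * (w * w') = r * (r * n * w) * w' := by
          rw [← mul_assoc r, ← mul_assoc r, r2, one_mul, mul_assoc]
      _ = r * n * (r * w') := by rw [← q]; simp only [mul_assoc]
      _ = n * (r * r) := by rw [← e', ← mul_assoc, ← q, mul_assoc]
      _ = _ := by rw [r2]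
  exact mul_left_cancel this

theorem adjB {n r r' w v v' : G} (q : n * r = r' * n * w) (e : r * v' = v * r)
    (e2 : w * v' = v) : n * v * r = r' * (n * v) := by
  rw [mul_assoc, ← e, ← mul_assoc, q, ← e2]; simp only [mul_assoc]

theorem exN2 (h : Hm False f) (hC : SC f) {n : G} (p : AW f n) :
    ∃ n, AW f n ∧ n * f rr = f rr * n ∧ n * f tt = f tt * f rr * n := by
  have ar : Ac f S1 (f rr) rr := ac_dg h (by decide)
  have aT : Ac f S1 (f tt) tt := ac_dg h (by decide)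
  have r2 : f rr * f rr = 1 := (h.mul' pb_rr.dm pb_rr.dm (by decide)).trans h.one
  have tr : Commute (f rr) (f tt) := h.comm pb_rr.dm pb_tt.dm (by decide)
  obtain ⟨n, p, pr⟩ : ∃ n, AW f n ∧ n * f rr = f rr * n := by
    obtain ⟨x, e, k, q⟩ := (p.ac.mul ar).w1 hC
      ((show rr * n1 = n1 * rr by decide) ▸ ar.mul p.ac) (by decide)
    obtain rfl : k = 0 := by
      have := adjA q r2 (rW h 0 x 0 e k)
      rw [h.uu_mul, ← h.one, ← uu_zero] at this
      have := h.uu_inj this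
      grind
    refine ⟨_, p.mul h (-x) (-e) 0, adjB q (by simpa using rW h 0 x 0 e 0) ?_⟩
    rw [h.uu_mul]
    congr 2 <;> grind
  obtain ⟨x, e, k, q⟩ := (p.ac.mul aT).w1 hC
    ((show -(tt * rr * n1) = n1 * tt by decide) ▸ ((aT.mul ar).mul p.ac).neg) (by decide)
  have cn : Commute (f rr) n := pr.symm
  have c1 : Commute (f rr) (f (uu 0 0 x 0 e k)) := by
    rw [show f (uu 0 0 x 0 e k) = (f tt * f rr * n)⁻¹ * (n * f tt) by rw [q]; group]
    exact ((tr.mul_right (.refl _)).mul_right cn).inv_right.mul_right (cn.mul_right tr)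
  have c2 := c1.eq
  rw [rW h, mul_left_inj] at c2
  have := h.uu_inj c2
  obtain rfl : x = 0 := by grind
  obtain rfl : e = 0 := by grind
  refine ⟨_, p.mul h 0 0 (-k), ?_, adjB q (by simpa using tW h 0 0 0 0 k) ?_⟩
  · exact (cn.mul_right (show f rr * _ = _ by simpa using rW h 0 0 0 0 (-k))).eq.symm
  · rw [h.uu_mul]
    congr 2 <;> grind

theorem nD (h : Hm False f) {n : G} (pr : n * f rr = f rr * n)
    (pt : n * f tt = f tt * f rr * n) {x y z s : ZMod 3} (e : x * y * z * s = 1) :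
    Cj f n (dg x y z s) (dg y x z s) := by
  have c1 : Cj f n (-1) (-1) := .ofc (by decide) (by rw [h.neg pb_one.dm, h.one]; simp)
  have c2 : Cj f n tt (-(tt * rr)) := ⟨pb_tt, by decide, by
    rw [h.neg (pb_tt.mul pb_rr).dm, h.mul _ _ pb_tt.dm pb_rr.dm, pt, mul_inv_cancel_right]⟩
  have : ∀ x y z s : ZMod 3, x * y * z * s = 1 → ∃ i j k : Fin 2,
      dg x y z s = (-1) ^ i.val * tt ^ j.val * rr ^ k.val ∧
      dg y x z s = (-1) ^ i.val * (-(tt * rr)) ^ j.val * rr ^ k.val := by decide +kernel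
  obtain ⟨i, j, k, e1, e2⟩ := this x y z s e
  rw [e1, e2]
  exact ((c1.pow h _).mul h (c2.pow h _)).mul h ((Cj.ofc pb_rr pr).pow h _)

theorem ac2 (h : Hm False f) {n : G} (p : AW f n) (pr : n * f rr = f rr * n)
    (pt : n * f tt = f tt * f rr * n) : Ac f S2 n n1 := by
  rintro a (ha | ⟨x, y, z, s, e, rfl⟩)
  · obtain ⟨b, hb, e⟩ := p.ac a ha
    exact ⟨b, Or.inl hb, e⟩
  exact ⟨dg y x z s, Or.inr ⟨_, _, _, _, by rw [← e]; ring, rfl⟩, by ext <;> simp [dg, n1],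
    (nD h pr pt e).e⟩

theorem ac_n2 (h : Hm False f) : Ac f S2 (f n2) n2 := by
  refine Ac.of h S2.pb pb_n2 ?_
  rintro _ (⟨x, e, k, rfl⟩ | ⟨x, y, z, s, e, rfl⟩)
  · exact ⟨_, Or.inl ⟨x, k, -e, rfl⟩, by ext <;> simp [n2, uu]⟩
  · exact ⟨_, Or.inr ⟨x, z, y, s, by rw [← e]; ring, rfl⟩, by ext <;> simp [dg, n2]⟩

theorem ac_rr (h : Hm False f) : Ac f S2 (f rr) rr := by
  refine Ac.of h S2.pb pb_rr ?_
  rintro _ (⟨x, e, k, rfl⟩ | ⟨x, y, z, s, e, rfl⟩)
  · exact ⟨_, Or.inl ⟨-x, -e, k, rfl⟩, by ext <;> simp [rr, dg, uu]⟩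
  · exact ⟨_, Or.inr ⟨x, y, z, s, e, rfl⟩, by ext <;> simp [dg, rr]⟩

theorem nsq (h : Hm False f) (hC : SC f) {n : G} (p : Ac f S2 n n1) : n * n = f rr :=
  (p.mul p).eq h hC ((show -rr = n1 * n1 by decide) ▸ (ac_rr h).neg) (by decide)

theorem braid (h : Hm False f) (hC : SC f) {n : G} (p : Ac f S2 n n1) :
    f n2 * n * f n2 = n * f n2 * n :=
  (((ac_n2 h).mul p).mul (ac_n2 h)).eq h hC
    ((show n1 * n2 * n1 = n2 * n1 * n2 by decide) ▸ (p.mul (ac_n2 h)).mul p) (by decide)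

theorem Cj.cmj (h : Hm False f) {a b x : M4} (p : Cj f g a b) (hx : Pb x) (e : x * a = a * x) :
    g * f x * g⁻¹ * f b = f b * (g * f x * g⁻¹) := by
  have := h.comm hx.dm p.pa.dm e
  rw [← p.e]
  calc _ = g * (f x * f a) * g⁻¹ := by group
    _ = _ := by rw [this]; group

theorem n13 (h : Md False True f) {n : G} (p : AW f n) (pr : n * f rr = f rr * n)
    (pt : n * f tt = f tt * f rr * n) : Cj f n (uu 0 1 0 0 0 0) (uu 0 0 0 (-1) 0 0) := by
  have h0 := h.toHm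
  obtain ⟨b, x, y, e, k, q⟩ := cenU h
    (by simpa using (p 0 1 0).cmj h0 (pb_uu 0 1 0 0 0 0) (by decide))
    (by simpa using (p (-1) 0 0).cmj h0 (pb_uu 0 1 0 0 0 0) (by decide))
  have c1 := (nD h0 pr pt (show (-1) * 1 * (-1) * 1 = 1 by decide)).cmj h0 (pb_uu 0 1 0 0 0 0)
    (by decide)
  rw [q, ← tt, tW h0, mul_left_inj] at c1
  have := h.uu_inj c1
  obtain rfl : b = 0 := by grind
  obtain rfl : e = 0 := by grind
  obtain rfl : k = 0 := by grind
  have q1 : Cj f n (uu 0 1 0 0 0 0) (uu 0 0 x y 0 0) := ⟨pb_uu .., pb_uu .., q⟩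
  have q2 : Cj f (f n3) zz (uu 0 1 0 0 0 0) := .of h0 pb_n3 (pb_uu ..) (pb_uu ..) (by decide)
  have q3 : Cj f (f n3) (uu 0 0 x y 0 0) (uu 0 x 0 0 (-y) 0) :=
    .of h0 pb_n3 (pb_uu ..) (pb_uu ..) (by ext <;> simp [n3, uu])
  rcases h.c0 _ _ _ _ _ _ (q3.trans (q1.trans q2)).e with ⟨r, -⟩ | ⟨-, -, rfl⟩
  · obtain rfl : y = 0 := by simpa using r
    have := (p 0 x 0).e
    rw [neg_zero, ← q, mul_left_inj, mul_right_inj] at this
    exact absurd (h.uu_inj this).2.1 (by decide)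
  have e1 := (q1.mul h0 (p 0 0 1)).e
  have e2 := (((p 1 0 0).mul h0 (p 0 0 1)).mul h0 q1).e
  rw [show uu 0 0 1 0 0 0 * uu 0 0 0 0 0 1 * uu 0 1 0 0 0 0 = uu 0 1 0 0 0 0 * uu 0 0 0 0 0 1 by
    decide, e1, uu_mul, uu_mul, uu_mul] at e2
  have := h.uu_inj e2
  obtain rfl : y = -1 := by grind
  exact q1

theorem nJ (h : Md False True f) (hC : SC f) {n : G} (p : AW f n) (pr : n * f rr = f rr * n)
    (pt : n * f tt = f tt * f rr * n) (b x y e : ZMod 3) :
    Cj f n (uu 0 b x y e 0) (uu 0 y e (-b) (-x) 0) := by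
  have h0 := h.toHm
  have q1 := n13 h p pr pt
  have q2 : Cj f n (uu 0 0 0 1 0 0) (uu 0 1 0 0 0 0) := by
    have := q1.inv.trans (Cj.of h0 pb_rr (pb_uu 0 0 0 1 0 0) (pb_uu ..) (by decide))
    rwa [← nsq h0 hC (ac2 h0 p pr pt), inv_mul_cancel_left] at this
  have := ((q1.pow h0 b.val).mul h0 (q2.pow h0 y.val)).mul h0 (p x e 0)
  have e1 : ∀ b y : ZMod 3, uu 0 1 0 0 0 0 ^ b.val * uu 0 0 0 1 0 0 ^ y.val = uu 0 b 0 y 0 0 ∧
    uu 0 0 0 (-1) 0 0 ^ b.val * uu 0 1 0 0 0 0 ^ y.val = uu 0 y 0 (-b) 0 0 := by decide +kernel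
  rw [(e1 b y).1, (e1 b y).2, uu_mul, uu_mul] at this
  simpa using this

/-- the transvection in place `43` -/
def ll (s : ZMod 3) : M4 := ⟨1, 0, 0, 0, 0, 1, 0, 0, 0, 0, 1, 0, 0, 0, s, 1⟩

/-- the matrices of `J` -/
def S3 (a : M4) : Prop := ∃ b x y e, a = uu 0 b x y e 0

theorem force_eq_pb2 : True := by
  have := @ll.eq_1
  have := @S3.eq_1
  trivial

theorem n43 (h : Md False True f) (hC : SC f) {n : G} (p : AW f n) (pr : n * f rr = f rr * n)
    (pt : n * f tt = f tt * f rr * n) (s : ZMod 3) : Cj f n (ll s) (ll s) := by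
  have h0 := h.toHm
  have hl : Pb (ll s) := by simp [Pb, ll, det]
  have a1 : Ac f S3 n n1 := by
    rintro _ ⟨b, x, y, e, rfl⟩
    exact ⟨_, ⟨_, _, _, _, rfl⟩, by ext <;> simp [n1, uu], (nJ h hC p pr pt b x y e).e⟩
  have a2 : Ac f S3 (f (ll s)) (ll s) := by
    refine Ac.of h0 (by rintro _ ⟨b, x, y, e, rfl⟩; exact pb_uu ..) hl ?_
    rintro _ ⟨b, x, y, e, rfl⟩
    exact ⟨_, ⟨b - s * x, x, y - s * e, e, rfl⟩, by ext <;> simp [ll, uu] <;> ring⟩
  have a3 := fun a ha => (a1.mul a2).cen (a := a)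
    ((show ll s * n1 = n1 * ll s by ext <;> simp [ll, n1]) ▸ a2.mul a1)
    (by rw [det_mul, hl.1]; decide) ha
  obtain ⟨b, x, y, e, k, q⟩ := cenU h (a3 _ ⟨_, _, _, _, rfl⟩) (a3 _ ⟨_, _, _, _, rfl⟩)
  have c1 := a3 _ ⟨1, 0, 0, 0, rfl⟩
  have cn : Commute (f rr) n := pr.symm
  have cl : Commute (f rr) (f (ll s)) := h0.comm pb_rr.dm hl.dm (by ext <;> simp [ll, rr, dg])
  have c2 := ((cl.mul_right cn).inv_right.mul_right (cn.mul_right cl)).eq
  rw [q, rW h0, mul_left_inj] at c2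
  rw [q, h.uu_mul, h.uu_mul] at c1
  have d1 := h.uu_inj c1
  have d2 := h.uu_inj c2
  obtain rfl : b = 0 := by grind
  obtain rfl : x = 0 := by grind
  obtain rfl : y = 0 := by grind
  obtain rfl : e = 0 := by grind
  obtain rfl : k = 0 := by grind
  rw [uu_zero, h.one, inv_mul_eq_one] at q
  exact .ofc hl q.symm

/-- `y` stands for the matrix `m` in the chart `g`, `w` -/
def Rep (f : M4 → G) (g : G) (w m : M4) (y : G) : Prop :=
  ∃ b, Pb b ∧ m * w = w * b ∧ y = g * f b * g⁻¹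

/-- transvections -/
def T (i j : Fin 4) (s : ZMod 3) : M4 := ofM (H63.St.SL.tv i j s).1

/-- matrices known to lie in the first two charts -/
abbrev S4 (a : M4) : Prop :=
  a = uu 0 a.a13 a.a14 a.a23 a.a24 0 ∨ a = uu 0 0 0 0 0 a.a34 ∨ a = ll a.a43

/-- the root elements -/
def X (f : M4 → G) (n : G) (i j : Fin 4) (s : ZMod 3) : G :=
  if j = 0 then n * f (n1.adj * T i j s * n1) * n⁻¹ else f (T i j s)

theorem force_eq_pb3 : True := by
  have := @Rep.eq_1.{0}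
  have := @T.eq_1
  have := @X.eq_1.{0}
  trivial

variable {a b : M4} {y y' : G}

theorem Rep.mul (h : Hm False f) (p : Rep f g w a y) (q : Rep f g w b y') :
    Rep f g w (a * b) (y * y') := by
  obtain ⟨u, hu, e, rfl⟩ := p
  obtain ⟨v, hv, e', rfl⟩ := q
  exact ⟨u * v, hu.mul hv, by rw [mul_assoc, e', ← mul_assoc, e, mul_assoc],
    by rw [h.mul _ _ hu.dm hv.dm]; group⟩

theorem Rep.eq (hw : w.det = 1) (p : Rep f g w a y) (q : Rep f g w b y') (e : a = b) : y = y' := by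
  subst e
  obtain ⟨u, -, e, rfl⟩ := p
  obtain ⟨v, -, e', rfl⟩ := q
  obtain rfl : u = v := by
    rw [← one_mul u, ← adj_mul hw, mul_assoc, ← e, e', ← mul_assoc, adj_mul hw, one_mul]
  rfl

theorem Rep.conj (p : Rep f g w a y) (g' : G) {v : M4} (e : b * v = v * a) :
    Rep f (g' * g) (v * w) b (g' * y * g'⁻¹) := by
  obtain ⟨u, hu, e', rfl⟩ := p
  exact ⟨u, hu, by rw [← mul_assoc, e, mul_assoc, e', mul_assoc], by group⟩

theorem Rep.drop (h : Hm False f) {m : M4} (hm : Pb m) (p : Rep f (g * f m) (w * m) a y) :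
    Rep f g w a y := by
  obtain ⟨u, hu, e, rfl⟩ := p
  refine ⟨m * u * m.adj, (hm.mul hu).mul hm.adj, ?_, by rw [← h.cj_adj hm.dm hu.dm]; group⟩
  rw [← mul_assoc, ← mul_assoc, ← e, mul_assoc, mul_assoc, mul_adj hm.1, mul_one]

theorem S4.pb (ha : S4 a) : Pb a := by
  rcases ha with e | e | e <;> rw [e]
  · exact pb_uu ..
  · exact pb_uu ..
  · simp [Pb, ll, det]

theorem adj_cj (hw : w.det = 1) (a : M4) : a * w = w * (w.adj * a * w) := by
  rw [← mul_assoc, ← mul_assoc, mul_adj hw, one_mul]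

theorem D0 : ∀ i j s, i ≠ j → j ≠ 0 → Pb (T i j s) := by decide +kernel

theorem D1 : ∀ i s, i ≠ 0 → Pb (n1.adj * T i 0 s * n1) ∧
    S4 (n2.adj * (n1.adj * T i 0 s * n1) * n2) := by decide +kernel

theorem D2 : ∀ i j s, i ≠ j → j ≠ 0 → j ≠ 1 → S4 (T i j s) := by decide +kernel

theorem D3 : ∀ i j s, i ≠ j → j ≠ 0 → j ≠ 2 → S4 (n2.adj * T i j s * n2) := by decide +kernel

theorem ofM_mul (A B : Matrix (Fin 4) (Fin 4) (ZMod 3)) : ofM (A * B) = ofM A * ofM B :=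
  toM_inj (by rw [toM_mul, toM_ofM, toM_ofM, toM_ofM])

theorem charts (h : Md False True f) (hC : SC f) {n : G} (p : AW f n) (pr : n * f rr = f rr * n)
    (pt : n * f tt = f tt * f rr * n) (j l : Fin 4) : ∃ g w, w.det = 1 ∧
      ∀ i k s, i ≠ k → k = j ∨ k = l → Rep f g w (T i k s) (X f n i k s) := by
  have h0 := h.toHm
  have R1 : ∀ a, S4 a → Rep f n n1 a (f a) := by
    intro a ha
    rcases ha with e | e | e <;> rw [e]
    · exact ⟨_, pb_uu 0 (-a.a23) (-a.a24) a.a13 a.a14 0, by ext <;> simp [n1, uu],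
        by simpa using (nJ h hC p pr pt (-a.a23) (-a.a24) a.a13 a.a14).e.symm⟩
    · exact ⟨_, pb_uu 0 0 0 0 0 a.a34, by ext <;> simp [n1, uu],
        by simpa using (p 0 0 a.a34).e.symm⟩
    · exact ⟨_, (n43 h hC p pr pt a.a43).pa, by ext <;> simp [n1, ll],
        (n43 h hC p pr pt a.a43).e.symm⟩
  have R2 : ∀ a, Pb a → S4 (n2.adj * a * n2) → Rep f (f n2 * n) (n2 * n1) a (f a) := by
    intro a ha hb
    have := (R1 _ hb).conj (f n2) (adj_cj pb_n2.1 a)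
    rwa [h0.cj pb_n2.dm hb.pb.dm ha.dm (adj_cj pb_n2.1 a).symm] at this
  obtain ⟨c, hc, hj, hl⟩ : ∃ c : Fin 4, c ≠ 3 ∧ j ≠ c ∧ l ≠ c := by revert j l; decide
  have : ∃ g w, w.det = 1 ∧ ∀ i k s, i ≠ k → k ≠ c → Rep f g w (T i k s) (X f n i k s) := by
    obtain rfl | rfl | rfl : c = 0 ∨ c = 1 ∨ c = 2 := by clear hj hl; revert c; decide
    · exact ⟨1, 1, det_one, fun i k s hi hk => ⟨_, D0 i k s hi hk, by simp, by simp [X, hk]⟩⟩
    · refine ⟨n, n1, by decide, fun i k s hi hk => ?_⟩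
      by_cases k0 : k = 0
      · subst k0
        exact ⟨_, (D1 i s hi).1, adj_cj (by decide) _, by simp [X]⟩
      · rw [X, if_neg k0]
        exact R1 _ (D2 i k s hi k0 hk)
    · refine ⟨f n2 * n, n2 * n1, by decide, fun i k s hi hk => ?_⟩
      by_cases k0 : k = 0
      · subst k0
        have := (R2 _ (D1 i s hi).1 (D1 i s hi).2).conj n (adj_cj (w := n1) (by decide) _)
        rw [← mul_assoc n, ← braid h0 hC (ac2 h0 p pr pt),
          show n1 * (n2 * n1) = n2 * n1 * n2 by decide] at this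
        rw [X, if_pos rfl]
        exact this.drop h0 pb_n2
      · rw [X, if_neg k0]
        exact R2 _ (D0 i k s hi k0) (D3 i k s hi k0 hk)
  obtain ⟨g, w, hw, q⟩ := this
  exact ⟨g, w, hw, fun i k s hi hk => q i k s hi (by rcases hk with rfl | rfl <;> assumption)⟩

theorem exHom (h : Md False True f) (hC : SC f) {n : G} (p : AW f n) (pr : n * f rr = f rr * n)
    (pt : n * f tt = f tt * f rr * n) :
    ∃ ψ : Matrix.SpecialLinearGroup (Fin 4) (ZMod 3) →* G,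
      ∀ i j s, i ≠ j → j ≠ 0 → ψ (H63.St.SL.tv i j s) = f (T i j s) := by
  have h0 := h.toHm
  have mT : ∀ A B : Matrix.SpecialLinearGroup (Fin 4) (ZMod 3),
    ofM A.1 * ofM B.1 = ofM (A * B).1 := fun A B => (ofM_mul _ _).symm
  let st := (H63.St.SL.st (Fin 4) (ZMod 3)).toPreStA
  obtain ⟨ψ, hψ⟩ := H63.St.SL.exists_hom (n := 4) (by norm_num)
    ({ x := X f n
       add := fun {i j} hij a b => by
         obtain ⟨g, w, hw, q⟩ := charts h hC p pr pt j j
         refine ((q i j a hij (.inl rfl)).mul h0 (q i j b hij (.inl rfl))).eq hw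
           (q i j _ hij (.inl rfl)) ?_
         rw [T, T, mT]
         exact congrArg (fun A => ofM A.1) (st.add hij a b)
       c0 := fun {i j k l} hij hkl hil hjk t u => by
         obtain ⟨g, w, hw, q⟩ := charts h hC p pr pt j l
         refine ((q i j t hij (.inl rfl)).mul h0 (q k l u hkl (.inr rfl))).eq hw
           ((q k l u hkl (.inr rfl)).mul h0 (q i j t hij (.inl rfl))) ?_
         rw [T, T, mT, mT]
         exact congrArg (fun A => ofM A.1) (st.c0 hij hkl hil hjk t u).eq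
       c1 := fun {i j l} hij hjl hil t u => by
         obtain ⟨g, w, hw, q⟩ := charts h hC p pr pt j l
         rw [commutatorElement_def, mul_inv_eq_iff_eq_mul, mul_inv_eq_iff_eq_mul]
         refine ((q i j t hij (.inl rfl)).mul h0 (q j l u hjl (.inr rfl))).eq hw
           (((q i l _ hil (.inr rfl)).mul h0 (q j l u hjl (.inr rfl))).mul h0
             (q i j t hij (.inl rfl))) ?_
         have := st.c1 hij hjl hil t u
         rw [commutatorElement_def, mul_inv_eq_iff_eq_mul, mul_inv_eq_iff_eq_mul] at this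
         rw [T, T, T, mT, mT, mT]
         exact congrArg (fun A => ofM A.1) this } : H63.St.PreStA (Fin 4) (ZMod 3) G)
  exact ⟨ψ, fun i j s hij hj => (hψ i j hij s).trans (if_neg hj)⟩

/-- the Levi factor -/
def io (A : Matrix (Fin 3) (Fin 3) (ZMod 3)) : M4 :=
  ⟨A 0 0 * A 1 1 * A 2 2 - A 0 0 * A 1 2 * A 2 1 - A 0 1 * A 1 0 * A 2 2 + A 0 1 * A 1 2 * A 2 0 +
    A 0 2 * A 1 0 * A 2 1 - A 0 2 * A 1 1 * A 2 0, 0, 0, 0,
    0, A 0 0, A 0 1, A 0 2, 0, A 1 0, A 1 1, A 1 2, 0, A 2 0, A 2 1, A 2 2⟩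

theorem force_eq_pb4 : True := by
  have := @io.eq_1
  trivial

theorem io_mul (A B : Matrix (Fin 3) (Fin 3) (ZMod 3)) : io (A * B) = io A * io B := by
  ext <;> simp [io, Matrix.mul_apply, Fin.sum_univ_three]
  ring

theorem gen (P : M4 → Prop) (hm : ∀ a b, P a → P b → P (a * b)) (h1 : P (-1))
    (hT : ∀ i j s, i ≠ j → j ≠ 0 → P (T i j s)) (m : M4) (h : Pb m) : P m := by
  have t3 : ∀ {i j k l u v s s' s''}, i ≠ j → j ≠ 0 → k ≠ l → l ≠ 0 → u ≠ v → v ≠ 0 →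
      P (T i j s * T k l s' * T u v s'') := fun a b c d e f =>
    hm _ _ (hm _ _ (hT _ _ _ a b) (hT _ _ _ c d)) (hT _ _ _ e f)
  have p2 : P n2 := (show T 1 2 1 * T 2 1 (-1) * T 1 2 1 = n2 by decide +kernel) ▸
    t3 (by decide) (by decide) (by decide) (by decide) (by decide) (by decide)
  have p3 : P n3 := (show T 2 3 1 * T 3 2 (-1) * T 2 3 1 = n3 by decide +kernel) ▸
    t3 (by decide) (by decide) (by decide) (by decide) (by decide) (by decide)
  have pw : ∀ a, P a → ∀ n : ℕ, P (a ^ n) := fun a ha n => by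
    induction n with
    | zero => simpa using hm _ _ h1 h1
    | succ n ih => rw [pow_succ]; exact hm _ _ ih ha
  have hi : ∀ A : Matrix (Fin 3) (Fin 3) (ZMod 3), A.det ≠ 0 → P (io A) := fun A hA => by
    refine Matrix.diagonal_transvection_induction_of_det_ne_zero (fun A => P (io A)) A hA
      (fun D hD => ?_) (fun t => ?_) fun A B _ _ p q => io_mul A B ▸ hm _ _ p q
    · have : ∀ x y z : ZMod 3, x * y * z ≠ 0 → ∃ i j k : Fin 2,
        dg (x * y * z) x y z = (-1) ^ i.val * (n2 ^ 2) ^ j.val * (n3 ^ 2) ^ k.val := by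
        decide +kernel
      obtain ⟨i, j, k, e⟩ := this (D 0) (D 1) (D 2)
        (by simpa [Fin.prod_univ_three] using hD)
      rw [show io (Matrix.diagonal D) = dg (D 0 * D 1 * D 2) (D 0) (D 1) (D 2) by
        ext <;> simp [io, dg], e]
      exact hm _ _ (hm _ _ (pw _ h1 _) (pw _ (pw _ p2 _) _)) (pw _ (pw _ p3 _) _)
    · have : ∀ (i j : Fin 3) (s : ZMod 3), i ≠ j →
        io (Matrix.transvection i j s) = T i.succ j.succ s := by decide +kernel
      rw [Matrix.TransvectionStruct.toMatrix, this _ _ _ t.hij]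
      exact hT _ _ _ (by simpa using t.hij) (Fin.succ_ne_zero _)
  have hu : ∀ a b c, T 0 1 a * T 0 2 b * T 0 3 c = uu a b c 0 0 0 := by decide +kernel
  obtain ⟨d1, d2, d3, d4⟩ := h
  rw [det, d2, d3, d4] at d1
  rw [show m = io !![m.a22, m.a23, m.a24; m.a32, m.a33, m.a34; m.a42, m.a43, m.a44] *
      uu (m.a11 * m.a12) (m.a11 * m.a13) (m.a11 * m.a14) 0 0 0 by
    ext <;> simp [io, uu, *] <;> rcases z3 m.a11 with q | q | q <;> grind]
  refine hm _ _ (hi _ ?_) (hu _ _ _ ▸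
    t3 (by decide) (by decide) (by decide) (by decide) (by decide) (by decide))
  simp [Matrix.det_fin_three]
  grind

end PB

open PB in
theorem partB {G : Type*} [Group G] {f f' : M4 → G} (h : Md False True f) (h' : Md False True f')
    (hz : f' zz = f zz) (hW : ∀ a b c, ∃ x e k, f' (uu a b c 0 0 0) = f (uu 0 0 x 0 e k)) :
    ∃ F : M4 → G, Md True True F := by
  have h0 := h.toHm
  obtain ⟨hC, n, p⟩ := exN h h' hz hW
  obtain ⟨n, p, pr, pt⟩ := exN2 h0 hC p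
  obtain ⟨ψ, hψ⟩ := exHom h hC p pr pt
  obtain ⟨F, Fm, FT⟩ : ∃ F : M4 → G, (∀ a b, a.det = 1 → b.det = 1 → F (a * b) = F a * F b) ∧
      ∀ i j s, i ≠ j → j ≠ 0 → F (T i j s) = f (T i j s) := by
    refine ⟨fun m => if hm : m.det = 1 then ψ ⟨m.toM, by rw [det_toM, hm]⟩ else 1,
      fun a b ha hb => ?_, fun i j s hi hj => ?_⟩
    · simp only [dif_pos ha, dif_pos hb,
        dif_pos (show (a * b).det = 1 by rw [det_mul, ha, hb, mul_one])]
      exact (congrArg ψ (Subtype.ext (toM_mul a b))).trans (map_mul ψ _ _)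
    · simp only [dif_pos (D0 i j s hi hj).1, ← hψ i j s hi hj]
      exact congrArg ψ (Subtype.ext (toM_ofM _))
  have F1 : F (-1) = 1 := by
    have q := gen (fun a => Pb a ∧ ∃ i : ℕ, F a = F (-1) ^ i * f a)
      (by
        rintro a b ⟨ha, i, ea⟩ ⟨hb, j, eb⟩
        refine ⟨ha.mul hb, i + j, ?_⟩
        have c : Commute (F (-1)) (F a) := by
          change _ = _
          rw [← Fm _ _ (by decide) ha.1, ← Fm _ _ ha.1 (by decide), neg_one_mul, mul_neg_one]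
        rw [Fm _ _ ha.1 hb.1, eb, ← mul_assoc, ← (c.pow_left j).eq, ea, h.mul _ _ ha.dm hb.dm,
          add_comm, pow_add]
        simp only [mul_assoc])
      ⟨by decide, 1, by rw [h.neg pb_one.dm, h.one, pow_one, mul_one]⟩
      fun i j s hi hj => ⟨D0 i j s hi hj, 0, by simp [FT i j s hi hj]⟩
    have : ∀ a, Pb a → F (-1) * f a = f a * F (-1) := fun a ha => by
      obtain ⟨-, i, e⟩ := q a ha
      have c : Commute (F (-1)) (F a) := by
        change _ = _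
        rw [← Fm _ _ (by decide) ha.1, ← Fm _ _ ha.1 (by decide), neg_one_mul, mul_neg_one]
      rw [← inv_mul_eq_iff_eq_mul] at e
      rw [← e]
      exact (((Commute.refl _).pow_right i).inv_right.mul_right c).eq
    exact key h0 hC (fun _ _ _ => this _ (pb_uu ..)) (this _ pb_tt) (this _ pb_rr)
  have Ff : ∀ m, Pb m → F m = f m := fun m hm =>
    (gen (fun a => Pb a ∧ F a = f a)
      (fun a b p q => ⟨p.1.mul q.1, by rw [Fm _ _ p.1.1 q.1.1, p.2, q.2, h.mul _ _ p.1.dm q.1.dm]⟩)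
      ⟨by decide, by rw [F1, h.neg pb_one.dm, h.one]⟩
      (fun i j s hi hj => ⟨D0 i j s hi hj, FT i j s hi hj⟩) m hm).2
  refine ⟨F, ⟨fun a b ha hb => Fm a b ha.1 hb.1, fun m hm => ⟨fun e => ?_, ?_⟩⟩, fun g hg => ?_,
    fun g a b x e k q => ?_⟩
  · have main : ∀ y x : M4, Pb y → Pb x → m * x = y * m → x = y ∨ x = -y := fun y x hy hx q => by
      have := congrArg F q
      rw [Fm _ _ hm.1 hx.1, Fm _ _ hy.1 hm.1, e, one_mul, mul_one, Ff _ hx, Ff _ hy] at this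
      exact (h.eq_iff hx.dm hy.dm).1 this
    have k : ∀ u v w : ZMod 3, u * m.a21 + v * m.a31 + w * m.a41 = 0 →
        m.a21 * v = 0 ∧ m.a31 * u = 0 ∧ m.a41 * v = 0 := fun u v w q => by
      have := main ⟨1, m.a11 * u, m.a11 * v, m.a11 * w, 0, 1 + m.a21 * u, m.a21 * v, m.a21 * w,
        0, m.a31 * u, 1 + m.a31 * v, m.a31 * w, 0, m.a41 * u, m.a41 * v, 1 + m.a41 * w⟩
        (uu (u * m.a22 + v * m.a32 + w * m.a42) (u * m.a23 + v * m.a33 + w * m.a43)
          (u * m.a24 + v * m.a34 + w * m.a44) 0 0 0) (by simp [Pb, det]; grind) (pb_uu ..)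
        (by ext <;> simp [uu] <;> grind)
      simp only [M4.ext_iff, uu, neg_a23, neg_a32, neg_a43] at this
      grind
    have k1 := k m.a31 (-m.a21) 0 (by ring)
    have k2 := k 0 m.a41 (-m.a31) (by ring)
    have hp : Pb m := ⟨hm.1, by grind, by grind, by grind⟩
    exact (h.ker m hp.dm).1 (Ff m hp ▸ e)
  · rintro (rfl | rfl)
    · rw [Ff _ pb_one, h.one]
    · exact F1
  · rw [Ff zz (pb_uu ..)] at hg
    obtain ⟨m, hm, e⟩ := h.nz g hg
    exact ⟨m, hm, (Ff m hm).trans e⟩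
  · rw [Ff zz (pb_uu ..), Ff _ (pb_uu ..)] at q
    exact h.c0 g a b x e k q

end H20.L43
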