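import Mathlib
import Cfsg.Agent.Base
import Cfsg.Agent.Lib.P3L.Defs
import Cfsg.Agent.Lib.Core.PCore
import Cfsg.Agent.S0249

/-! The final isomorphisms. -/

set_option autoImplicit false

namespace H20.L43

open Subgroup M4 Matrix

variable {G : Type*} [Group G] {G' : Type*} [Group G'] {d : Prop} {f : M4 → G}

namespace PF

/-- a map on the domain which is multiplicative and even factors through the image -/
theorem exists_hom (h : Hm d f) (r : M4 → G') (hm : ∀ a b, Dm d a → Dm d b → r (a * b) = r a * r b)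
    (hn : ∀ a, Dm d a → r (-a) = r a) :
    ∃ φ : h.H →* G', ∀ m (hm : Dm d m), φ ⟨f m, h.mH hm⟩ = r m := by
  have key : ∀ (g : h.H) m, Dm d m → f m = g → r g.2.choose = r m := by
    intro g m hm e
    obtain ⟨h1, h2⟩ := g.2.choose_spec
    rcases (h.eq_iff h1 hm).1 (h2.trans e.symm) with q | q
    · rw [q]
    · rw [q, hn m hm]
  refine ⟨MonoidHom.mk' (fun g => r g.2.choose) fun a b => ?_, fun m hm => key _ m hm rfl⟩
  obtain ⟨a1, a2⟩ := a.2.choose_spec
  obtain ⟨b1, b2⟩ := b.2.choose_spec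
  rw [key (a * b) _ (a1.mul b1) (by rw [h.mul _ _ a1 b1, a2, b2]; rfl), hm _ _ a1 b1]

theorem iso {f' : M4 → G'} (h : Hm d f) (h' : Hm d f') : Nonempty (h.H ≃* h'.H) := by
  obtain ⟨φ, hφ⟩ := exists_hom h f' h'.mul fun a ha => h'.neg ha
  refine ⟨MulEquiv.ofBijective (φ.codRestrict h'.H ?_) ⟨?_, ?_⟩⟩
  · rintro ⟨_, m, hm, rfl⟩
    rw [hφ m hm]
    exact h'.mH hm
  · rw [injective_iff_map_eq_one]
    rintro ⟨_, m, hm, rfl⟩ e
    have e' : φ ⟨f m, h.mH hm⟩ = 1 := congrArg Subtype.val e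
    rw [hφ m hm, h'.ker m hm] at e'
    exact Subtype.ext ((h.ker m hm).2 e')
  · rintro ⟨_, m, hm, rfl⟩
    exact ⟨⟨f m, h.mH hm⟩, Subtype.ext (hφ m hm)⟩

theorem iso' {f' : M4 → G'} (h : Hm d f) (h' : Hm d f') (hs : ∀ g, g ∈ h.H) :
    Nonempty (G ≃* h'.H) := by
  obtain ⟨e⟩ := iso h h'
  exact ⟨(topEquiv.symm.trans (MulEquiv.subgroupCongr (eq_top_iff.2 fun g _ => hs g).symm)).trans e⟩

theorem exists_psl : ∃ F : M4 → ProjectiveSpecialLinearGroup (Fin 4) (ZMod 3),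
    Hm True F ∧ ∀ g, ∃ m, m.det = 1 ∧ F m = g := by
  classical
  obtain ⟨s, hs⟩ : ∃ s : M4 → Matrix.SpecialLinearGroup (Fin 4) (ZMod 3),
      ∀ m, m.det = 1 → (s m).1 = m.toM :=
    ⟨fun m => if h : m.det = 1 then ⟨m.toM, by rw [det_toM, h]⟩ else 1, fun m h =>
      congrArg Subtype.val (dif_pos h)⟩
  refine ⟨fun m => QuotientGroup.mk (s m), ⟨fun a b ha hb => ?_, fun a ha => ?_⟩, fun g => ?_⟩
  · rw [← QuotientGroup.mk_mul]
    refine congrArg _ (Subtype.ext ?_)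
    change (s (a * b)).1 = (s a).1 * (s b).1
    rw [hs _ (ha.mul hb).1, hs _ ha.1, hs _ hb.1, toM_mul]
  · rw [QuotientGroup.eq_one_iff, Matrix.SpecialLinearGroup.mem_center_iff]
    constructor
    · rintro ⟨r, h1, h2⟩
      have h3 : r = 1 ∨ r = -1 := by
        revert h1
        rw [Fintype.card_fin]
        generalize r = x
        revert x
        decide
      rw [hs _ ha.1] at h2
      rcases h3 with rfl | rfl
      · exact Or.inl (toM_inj (by rw [← h2, toM_one, map_one]))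
      · exact Or.inr (toM_inj (by rw [← h2, toM_neg, toM_one, map_neg, map_one]))
    · rintro (rfl | rfl)
      · exact ⟨1, one_pow _, by rw [hs _ det_one, toM_one, map_one]⟩
      · exact ⟨-1, by decide, by rw [hs _ ha.1, toM_neg, toM_one, map_neg, map_one]⟩
  · obtain ⟨A, rfl⟩ := QuotientGroup.mk_surjective g
    have hA : (ofM A.1).det = 1 := by rw [← det_toM, toM_ofM, A.2]
    exact ⟨ofM A.1, hA, congrArg _ (Subtype.ext (by rw [hs _ hA, toM_ofM]))⟩

theorem hm_false (h : Hm True f) : Hm False f :=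
  ⟨fun a b ha hb => h.mul a b (dm_true.2 ha.1) (dm_true.2 hb.1), fun a ha => h.ker a (dm_true.2 ha.1)⟩

theorem exists_move (a b c e : ZMod 3) (h : ¬(b = 0 ∧ c = 0 ∧ e = 0)) : ∃ p, Pb p ∧
    p.a11 * a + p.a12 * b + p.a13 * c + p.a14 * e = 0 ∧
    p.a31 * a + p.a32 * b + p.a33 * c + p.a34 * e = 0 ∧
    p.a41 * a + p.a42 * b + p.a43 * c + p.a44 * e = 0 := by
  by_cases hb : b = 0
  · by_cases hc : c = 0
    · refine ⟨⟨1, 0, 0, -a * e, 0, 0, 0, 1, 0, 1, 0, 0, 0, 0, 1, 0⟩, ?_⟩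
      revert a b c e
      decide
    · refine ⟨⟨1, 0, -a * c, 0, 0, 0, -1, 0, 0, 1, 0, 0, 0, 0, -e * c, 1⟩, ?_⟩
      revert a b c e
      decide
  · refine ⟨⟨1, -a * b, 0, 0, 0, -b, 0, 0, 0, c, -b, 0, 0, -e * b, 0, 1⟩, ?_⟩
    revert a b c e
    decide

theorem bruhat {m : M4} (hm : m.det = 1) (h : ¬Pb m) :
    ∃ p q, Pb p ∧ Pb q ∧ p * m = n1 * q := by
  obtain ⟨p, hp, h1, h3, h4⟩ := exists_move m.a11 m.a21 m.a31 m.a41 fun e => h ⟨hm, e⟩
  have hn : n1.det = 1 := by decide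
  refine ⟨p, n1.adj * (p * m), hp, ⟨?_, ?_, ?_, ?_⟩, by rw [← mul_assoc, mul_adj hn, one_mul]⟩
  · rw [M4.det_mul, M4.det_mul, det_adj hn, hp.1, hm, mul_one, mul_one]
  all_goals
    rw [show n1.adj = ⟨0, -1, 0, 0, 1, 0, 0, 0, 0, 0, 1, 0, 0, 0, 0, 1⟩ by decide]
    simp [h1, h3, h4]

theorem coatom (h : Hm True f) (hs : ∀ g, ∃ m, m.det = 1 ∧ f m = g) : IsCoatom (hm_false h).H := by
  have hn : Dm True n1 := dm_true.2 (by decide)
  refine ⟨fun e => ?_, fun K hK => ?_⟩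
  · obtain ⟨m, hm, q⟩ : f n1 ∈ (hm_false h).H := e ▸ mem_top _
    obtain ⟨-, h2, -⟩ := dm_false.1 hm
    rcases (h.eq_iff (dm_true.2 hm.1) hn).1 q with rfl | rfl
    · exact absurd h2 (by decide)
    · exact absurd h2 (by decide)
  · obtain ⟨x, hx, hx'⟩ := SetLike.exists_of_lt hK
    have hP : ∀ p, Pb p → f p ∈ K := fun p hp => hK.le ((hm_false h).mH hp.dm)
    have key : ∀ m, m.det = 1 → ¬Pb m → (f m ∈ K ↔ f n1 ∈ K) := by
      intro m hm hb
      obtain ⟨p, q, hp, hq, e⟩ := bruhat hm hb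
      have e' := congrArg f e
      rw [h.mul _ _ hp.dm (dm_true.2 hm), h.mul _ _ hn hq.dm] at e'
      rw [← K.mul_mem_cancel_left (hP p hp), e', K.mul_mem_cancel_right (hP q hq)]
    obtain ⟨m, hm, rfl⟩ := hs x
    have h1 := (key m hm fun hb => hx' ((hm_false h).mH hb.dm)).1 hx
    refine eq_top_iff.2 fun g _ => ?_
    obtain ⟨m', hm', rfl⟩ := hs g
    by_cases hb : Pb m'
    exacts [hP _ hb, (key m' hm' hb).2 h1]

theorem pCore_sl3 : Cfsg.pCore 3 (SpecialLinearGroup (Fin 3) (ZMod 3)) = ⊥ := by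
  have hc : center (SpecialLinearGroup (Fin 3) (ZMod 3)) = ⊥ := by
    refine eq_bot_iff.2 fun A hA => ?_
    obtain ⟨r, h1, h2⟩ := Matrix.SpecialLinearGroup.mem_center_iff.1 hA
    have h3 : r = 1 := by
      revert h1
      rw [Fintype.card_fin]
      generalize r = x
      revert x
      decide
    exact Subtype.ext (by rw [← h2, h3, map_one]; rfl)
  have hs := Cfsg.Agent.S0249.result (F := ZMod 3) 3 le_rfl
  have hi : Function.Injective (QuotientGroup.mk' (center (SpecialLinearGroup (Fin 3) (ZMod 3)))) := by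
    rw [← MonoidHom.ker_eq_bot_iff, QuotientGroup.ker_mk', hc]
  rw [H1.pCore_eq_bot_iff]
  intro N hN hp
  rcases (hN.map _ (QuotientGroup.mk'_surjective (center _))).eq_bot_or_eq_top with e | e
  · exact (map_eq_bot_iff_of_injective _ hi).1 e
  · let x : SpecialLinearGroup (Fin 3) (ZMod 3) := ⟨!![1, 0, 0; 0, -1, 0; 0, 0, -1], by decide⟩
    have hx : x ∈ N := by
      rw [← mem_map_iff_mem hi, e]
      exact mem_top _
    obtain ⟨k, hk⟩ := hp ⟨x, hx⟩
    have h1 : x ^ 3 ^ k = 1 := congrArg Subtype.val hk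
    have h2 : x ^ 2 = 1 := by decide
    have h3 := pow_gcd_eq_one.2 ⟨h1, h2⟩
    rw [Nat.Coprime.gcd_eq_one (Nat.Coprime.pow_left k (by norm_num)), pow_one] at h3
    exact absurd (congrFun (congrFun (congrArg Subtype.val h3) 1) 1) (by decide)

theorem sq_a11 {m : M4} (h : Pb m) : m.a11 * m.a11 = 1 := by
  obtain ⟨h1, h2, h3, h4⟩ := h
  have : m.a11 ≠ 0 := fun e => by simp [M4.det, e, h2, h3, h4] at h1
  revert this
  generalize m.a11 = x
  revert x
  decide

theorem exists_proj (h : Hm False f) : ∃ φ : h.H →* SpecialLinearGroup (Fin 3) (ZMod 3),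
    Function.Surjective φ ∧ Nat.card φ.ker = 27 := by
  classical
  let B : M4 → Matrix (Fin 3) (Fin 3) (ZMod 3) := fun m =>
    m.a11 • !![m.a22, m.a23, m.a24; m.a32, m.a33, m.a34; m.a42, m.a43, m.a44]
  have hB : ∀ m, Pb m → (B m).det = 1 := by
    intro m hm
    have e := sq_a11 hm
    obtain ⟨h1, h2, h3, h4⟩ := hm
    simp only [M4.det, h2, h3, h4] at h1
    simp only [B, det_smul, Fintype.card_fin, det_fin_three, of_apply, cons_val', cons_val_zero,
      cons_val_one, cons_val, cons_val_fin_one]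
    linear_combination h1 + (m.a11 * (m.a22 * m.a33 * m.a44 - m.a22 * m.a34 * m.a43 -
      m.a23 * m.a32 * m.a44 + m.a23 * m.a34 * m.a42 + m.a24 * m.a32 * m.a43 -
      m.a24 * m.a33 * m.a42)) * e
  obtain ⟨r, hr⟩ : ∃ r : M4 → Matrix.SpecialLinearGroup (Fin 3) (ZMod 3),
      ∀ m, Pb m → (r m).1 = B m :=
    ⟨fun m => if h : Pb m then ⟨B m, hB m h⟩ else 1, fun m h => congrArg Subtype.val (dif_pos h)⟩
  obtain ⟨φ, hφ⟩ := exists_hom h r
    (fun a b ha hb => Subtype.ext (by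
      rw [dm_false] at ha hb
      change (r (a * b)).1 = (r a).1 * (r b).1
      rw [hr _ (ha.mul hb), hr _ ha, hr _ hb]
      obtain ⟨-, a2, a3, a4⟩ := ha
      obtain ⟨-, b2, b3, b4⟩ := hb
      ext i j
      fin_cases i <;> fin_cases j <;>
        simp [B, Matrix.mul_apply, Fin.sum_univ_three, a2, a3, a4, b2, b3, b4] <;> ring))
    (fun a ha => Subtype.ext (by
      rw [hr _ (dm_false.1 ha.neg), hr _ (dm_false.1 ha)]
      ext i j
      fin_cases i <;> fin_cases j <;> simp [B]))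
  refine ⟨φ, fun A => ?_, ?_⟩
  · have hA : Pb ⟨1, 0, 0, 0, 0, A.1 0 0, A.1 0 1, A.1 0 2, 0, A.1 1 0, A.1 1 1, A.1 1 2, 0, A.1 2 0,
        A.1 2 1, A.1 2 2⟩ := by
      refine ⟨?_, rfl, rfl, rfl⟩
      have := A.2
      rw [det_fin_three] at this
      simp only [M4.det]
      linear_combination this
    refine ⟨_, (hφ _ hA.dm).trans (Subtype.ext ?_)⟩
    rw [hr _ hA]
    ext i j
    fin_cases i <;> fin_cases j <;> simp [B]
  · have hk : ∀ x : ZMod 3 × ZMod 3 × ZMod 3,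
        (⟨f (uu x.1 x.2.1 x.2.2 0 0 0), h.mH (pb_uu ..).dm⟩ : h.H) ∈ φ.ker := by
      intro x
      rw [MonoidHom.mem_ker, hφ _ (pb_uu ..).dm]
      refine Subtype.ext ?_
      rw [hr _ (pb_uu ..)]
      ext i j
      fin_cases i <;> fin_cases j <;> simp [B, uu]
    rw [← Nat.card_eq_of_bijective (fun x => (⟨_, hk x⟩ : φ.ker)) ⟨?_, ?_⟩]
    · simp
    · intro x y e
      have e' : f (uu x.1 x.2.1 x.2.2 0 0 0) = f (uu y.1 y.2.1 y.2.2 0 0 0) :=
        congrArg (fun z : φ.ker => z.1.1) e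
      obtain ⟨a, b, c, -⟩ := h.uu_inj e'
      exact Prod.ext a (Prod.ext b c)
    · rintro ⟨⟨_, m, hm, rfl⟩, hx⟩
      rw [MonoidHom.mem_ker, hφ m hm] at hx
      have hb := dm_false.1 hm
      have e : B m = 1 := (hr m hb).symm.trans (congrArg Subtype.val hx)
      have e1 := sq_a11 hb
      refine ⟨(m.a11 * m.a12, m.a11 * m.a13, m.a11 * m.a14), Subtype.ext (Subtype.ext ?_)⟩
      refine (h.eq_iff (pb_uu ..).dm hm).2 ?_
      obtain ⟨-, h2, h3, h4⟩ := hb
      have q := fun i j => congrFun (congrFun e i) j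
      have q00 := q 0 0
      have q01 := q 0 1
      have q02 := q 0 2
      have q10 := q 1 0
      have q11 := q 1 1
      have q12 := q 1 2
      have q20 := q 2 0
      have q21 := q 2 1
      have q22 := q 2 2
      simp only [B, Matrix.smul_apply, of_apply, cons_val', cons_val_zero, cons_val_one, cons_val,
        cons_val_fin_one, smul_eq_mul, one_apply_eq, ne_eq,
        Fin.reduceEq, not_false_eq_true, one_apply_ne] at q00 q01 q02 q10 q11 q12 q20 q21 q22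
      rcases mul_self_eq_one_iff.1 e1 with e2 | e2
      · left
        rw [e2, one_mul] at q00 q01 q02 q10 q11 q12 q20 q21 q22
        ext <;> simp [uu, *]
      · right
        rw [e2, neg_one_mul] at q00 q01 q02 q10 q11 q12 q20 q21 q22
        ext <;> simp [uu, *]

end PF

theorem finalII (h : Hm True f) (hs : ∀ g, g ∈ h.H) :
    Nonempty (G ≃* Matrix.ProjectiveSpecialLinearGroup (Fin 4) (ZMod 3)) := by
  obtain ⟨F, hF, hs'⟩ := PF.exists_psl
  obtain ⟨e⟩ := PF.iso' h hF hs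
  refine ⟨e.trans ((MulEquiv.subgroupCongr (eq_top_iff.2 fun g _ => ?_)).trans topEquiv)⟩
  obtain ⟨m, hm, rfl⟩ := hs' g
  exact hF.mH (dm_true.2 hm)

theorem finalI (h : Hm False f) (hs : ∀ g, g ∈ h.H) :
    ∃ (P : Subgroup (Matrix.ProjectiveSpecialLinearGroup (Fin 4) (ZMod 3))),
      IsCoatom P ∧ Nat.card (Cfsg.pCore 3 P) = 27 ∧
      Nonempty (P ⧸ Cfsg.pCore 3 P ≃* Matrix.SpecialLinearGroup (Fin 3) (ZMod 3)) ∧
      Nonempty (G ≃* P) := by
  obtain ⟨F, hF, hs'⟩ := PF.exists_psl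
  obtain ⟨φ, h1, h2⟩ := PF.exists_proj (PF.hm_false hF)
  have hk : Cfsg.pCore 3 (PF.hm_false hF).H = φ.ker := by
    rw [← H1.comap_pCore_of_ker h1 (IsPGroup.of_card (n := 3) h2), PF.pCore_sl3]
    rfl
  exact ⟨_, PF.coatom hF hs', by rw [hk, h2],
    ⟨(QuotientGroup.quotientMulEquivOfEq hk).trans (QuotientGroup.quotientKerEquivOfSurjective φ h1)⟩,
    PF.iso' h _ hs⟩

end H20.L43
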