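import Mathlib
import Cfsg.Agent.Lib.P3L.Defs

/-! L43 package N: involution classes of the model and the final count (helper8). -/

set_option autoImplicit false
set_option linter.unusedSectionVars false
set_option linter.unusedSimpArgs false

namespace H20.L43

open Subgroup M4

variable {G : Type*} [Group G] [Finite G] {d : Prop} {f : M4 → G}

namespace PN

theorem count_abs {H B : Subgroup G} {t : G} (t2 : t * t = 1) (hB : B ≤ H)
    (h1 : ∀ g, g * t * g⁻¹ ∈ H → g ∈ H)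
    (h2 : ∀ j, ∀ c ∈ B, c ≠ 1 → j * c * j⁻¹ = c⁻¹ → j ∈ H)
    (hc : Nat.card (centralizer ({t} : Set G)) < Nat.card B) (g : G) : g ∈ H := by
  by_contra hg
  let T := {j : G // (∃ s, s * t * s⁻¹ = j) ∧ j ∉ H}
  have sq : ∀ j : T, (j : G) * j = 1 := by
    rintro ⟨_, ⟨s, rfl⟩, -⟩
    rw [conj_mul, t2, mul_one, mul_inv_cancel]
  choose s hs using fun j : T => j.2.1
  let ψ : {g : G // g ∉ H} → T := fun g => ⟨g * t * (g : G)⁻¹, ⟨g, rfl⟩, fun k => g.2 (h1 _ k)⟩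
  let φ₂ : {g : G // g ∉ H} → T × centralizer ({t} : Set G) := fun g =>
    (ψ g, ⟨(s (ψ g))⁻¹ * g, mem_centralizer_singleton_iff.2 (by
      have : s (ψ g) * t * (s (ψ g))⁻¹ = g * t * (g : G)⁻¹ := hs (ψ g)
      calc (s (ψ g))⁻¹ * g * t = (s (ψ g))⁻¹ * (g * t * (g : G)⁻¹) * g := by group
        _ = _ := by rw [← this]; group)⟩)
  have i2 : Function.Injective φ₂ := fun a b e => by
    have e1 : ψ a = ψ b := congrArg Prod.fst e
    have e2 : (s (ψ a))⁻¹ * a = (s (ψ b))⁻¹ * b := congrArg (fun p => (p.2 : G)) e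
    rw [e1] at e2
    exact Subtype.ext (mul_left_cancel e2)
  let φ₁ : T × B → {g : G // g ∉ H} := fun p =>
    ⟨p.1 * p.2, fun k => p.1.2.2 ((mul_mem_cancel_right (hB p.2.2)).1 k)⟩
  have i1 : Function.Injective φ₁ := by
    rintro ⟨j, b⟩ ⟨j', b'⟩ e
    have e : (j : G) * b = j' * b' := congrArg Subtype.val e
    have e1 : (j' : G) * j = b' * (b : G)⁻¹ := by
      rw [eq_mul_inv_iff_mul_eq, mul_assoc, e, ← mul_assoc, sq, one_mul]
    have e2 : (b' : G) * (b : G)⁻¹ = 1 := by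
      by_contra hn
      refine j.2.2 (h2 j _ (mul_mem b'.2 (inv_mem b.2)) hn ?_)
      rw [← e1, mul_inv_rev, ← mul_assoc, mul_inv_cancel_right, inv_eq_of_mul_eq_one_right (sq j),
        inv_eq_of_mul_eq_one_right (sq j')]
    have e3 : b = b' := Subtype.ext (mul_inv_eq_one.1 e2).symm
    rw [e3] at e
    exact Prod.ext (Subtype.ext (mul_right_cancel e)) e3
  have := Nat.card_le_card_of_injective _ (i2.comp i1)
  rw [Nat.card_prod, Nat.card_prod] at this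
  have : Nonempty T := ⟨ψ ⟨g, hg⟩⟩
  exact absurd (Nat.le_of_mul_le_mul_left ‹_› Nat.card_pos) (by omega)

theorem z3 (x : ZMod 3) : x = 0 ∨ x = 1 ∨ x = -1 := by revert x; decide

theorem sq1 {x : ZMod 3} (h : x ≠ 0) : x * x = 1 := by revert x; decide

theorem nsq (x : ZMod 3) : x * x ≠ -1 := by revert x; decide

/-- conjugacy inside the domain -/
def Cj (d : Prop) (m x : M4) : Prop := ∃ g, Dm d g ∧ m * g = g * x

theorem Cj.trans {a b c : M4} (h : Cj d a b) (k : Cj d b c) : Cj d a c := by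
  obtain ⟨g, hg, e⟩ := h
  obtain ⟨g', hg', e'⟩ := k
  exact ⟨g * g', hg.mul hg', by rw [← mul_assoc, e, mul_assoc, e', mul_assoc]⟩

theorem cj_adj {g : M4} (hg : Dm d g) (m : M4) : Cj d m (g.adj * m * g) :=
  ⟨g, hg, by rw [← mul_assoc, ← mul_assoc, mul_adj hg.1, one_mul]⟩

theorem cj_fix {m x g s : M4} (e : m * g = g * x) (h0 : g.det ≠ 0)
    (hd : d ∨ (g.a21 = 0 ∧ g.a31 = 0 ∧ g.a41 = 0)) (hs : s.det = -1) (hx : s * x = x * s)
    (hs' : d ∨ (s.a21 = 0 ∧ s.a31 = 0 ∧ s.a41 = 0)) : Cj d m x := by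
  rcases z3 g.det with k | k | k
  · exact absurd k h0
  · exact ⟨g, ⟨k, hd⟩, e⟩
  · refine ⟨g * s, ⟨by rw [det_mul, k, hs]; decide, ?_⟩, by rw [← mul_assoc, e, mul_assoc, ← hx, mul_assoc]⟩
    rcases hd with hd | ⟨k1, k2, k3⟩
    · exact Or.inl hd
    rcases hs' with hd | ⟨l1, l2, l3⟩
    · exact Or.inl hd
    · exact Or.inr (by simp [*])

set_option synthInstance.maxSize 4000 in
theorem inv3 : ∀ a b c d g : ZMod 3, a * a + b * d + c * g = 1 → ∀ e h : ZMod 3, a * b + b * e + c * h = 0 →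
    ∀ f i : ZMod 3, a * c + b * f + c * i = 0 → d * a + e * d + f * g = 0 → d * b + e * e + f * h = 1 →
    d * c + e * f + f * i = 0 → g * a + h * d + i * g = 0 → g * b + h * e + i * h = 0 →
    g * c + h * f + i * i = 1 → a * (e * i - f * h) - b * (d * i - f * g) + c * (d * h - e * g) = 1 →
    (a = 1 ∧ b = 0 ∧ c = 0 ∧ d = 0 ∧ e = 1 ∧ f = 0 ∧ g = 0 ∧ h = 0 ∧ i = 1) ∨
    (a - 1) * ((e - 1) * (i + 1) - f * h) - b * (d * (i + 1) - f * g) + c * (d * h - (e - 1) * g) ≠ 0 ∨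
    (a - 1) * (f * h - (e + 1) * (i - 1)) - c * (d * h - (e + 1) * g) + b * (d * (i - 1) - f * g) ≠ 0 ∨
    b * (f * g - d * (i - 1)) - c * ((e - 1) * g - d * h) + (a + 1) * ((e - 1) * (i - 1) - f * h) ≠ 0 := by
  decide +kernel

theorem cj_P {m : M4} (h1 : m.det = 1) (e1 : m.a11 = 1) (e2 : m.a21 = 0) (e3 : m.a31 = 0) (e4 : m.a41 = 0)
    (h2 : m * m = 1) (hn : m ≠ 1) : Cj d m tt := by
  obtain ⟨a11, a12, a13, a14, a21, a22, a23, a24, a31, a32, a33, a34, a41, a42, a43, a44⟩ := m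
  simp only at e1 e2 e3 e4
  subst e1 e2 e3 e4
  simp only [M4.ext_iff] at h2
  simp [det] at h1 h2
  obtain ⟨k1, k2, k3, k4, k5, k6, k7, k8, k9, k10, k11, k12⟩ := h2
  have fix : ∀ g : M4, _ * g = g * tt → g.det ≠ 0 → (g.a21 = 0 ∧ g.a31 = 0 ∧ g.a41 = 0) →
      Cj d ⟨1, a12, a13, a14, 0, a22, a23, a24, 0, a32, a33, a34, 0, a42, a43, a44⟩ tt := fun g e h0 hd =>
    cj_fix (s := dg 1 (-1) 1 1) e h0 (Or.inr hd) (by decide) (by decide) (Or.inr (by decide))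
  rcases inv3 a22 a23 a24 a32 a42 k4 a33 a43 k5 a34 a44 k6 k7 k8 k9 k10 k11 k12 (by linear_combination h1) with
    ⟨rfl, rfl, rfl, rfl, rfl, rfl, rfl, rfl, rfl⟩ | k | k | k
  · refine absurd ?_ hn
    ext <;> simp <;> grind
  · refine fix ⟨1, a12, a13, a14, 0, a22 - 1, a23, a24, 0, a32, a33 - 1, a34, 0, a42, a43, a44 + 1⟩ ?_
      (fun e => k ?_) ⟨rfl, rfl, rfl⟩
    · ext <;> simp [tt, dg] <;> grind
    · simp only [det] at e; linear_combination e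
  · refine fix ⟨1, a12, a14, a13, 0, a22 - 1, a24, a23, 0, a32, a34, a33 + 1, 0, a42, a44 - 1, a43⟩ ?_
      (fun e => k ?_) ⟨rfl, rfl, rfl⟩
    · ext <;> simp [tt, dg] <;> grind
    · simp only [det] at e; linear_combination e
  · refine fix ⟨1, a13, a14, a12, 0, a23, a24, a22 + 1, 0, a33 - 1, a34, a32, 0, a43, a44 - 1, a42⟩ ?_
      (fun e => k ?_) ⟨rfl, rfl, rfl⟩
    · ext <;> simp [tt, dg] <;> grind
    · simp only [det] at e; linear_combination e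

theorem col1 {x y z w : ZMod 3} (h : x ≠ 0 ∨ y ≠ 0 ∨ z ≠ 0 ∨ w ≠ 0) :
    ∃ g : M4, g.det = 1 ∧ g.a11 = x ∧ g.a21 = y ∧ g.a31 = z ∧ g.a41 = w := by
  rcases h with h | h | h | h <;> have := sq1 h
  · exact ⟨⟨x, 0, 0, 0, y, x, 0, 0, z, 0, 1, 0, w, 0, 0, 1⟩, by simp [det, this], rfl, rfl, rfl, rfl⟩
  · exact ⟨⟨x, -y, 0, 0, y, 0, 0, 0, z, 0, 1, 0, w, 0, 0, 1⟩, by simp [det, this], rfl, rfl, rfl, rfl⟩
  · exact ⟨⟨x, 0, -z, 0, y, 1, 0, 0, z, 0, 0, 0, w, 0, 0, 1⟩, by simp [det, this], rfl, rfl, rfl, rfl⟩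
  · exact ⟨⟨x, 0, 0, -w, y, 1, 0, 0, z, 0, 1, 0, w, 0, 0, 0⟩, by simp [det, this], rfl, rfl, rfl, rfl⟩

theorem col2 (x : ZMod 3) {y z w : ZMod 3} (h : y ≠ 0 ∨ z ≠ 0 ∨ w ≠ 0) :
    ∃ g : M4, g.det = 1 ∧ (g.a11 = 1 ∧ g.a21 = 0 ∧ g.a31 = 0 ∧ g.a41 = 0) ∧
      g.a12 = x ∧ g.a22 = y ∧ g.a32 = z ∧ g.a42 = w := by
  rcases h with h | h | h <;> have := sq1 h
  · exact ⟨⟨1, x, 0, 0, 0, y, 0, 0, 0, z, y, 0, 0, w, 0, 1⟩, by simp [det, this], ⟨rfl, rfl, rfl, rfl⟩, rfl, rfl,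
      rfl, rfl⟩
  · exact ⟨⟨1, x, 0, 0, 0, y, -z, 0, 0, z, 0, 0, 0, w, 0, 1⟩, by simp [det, this], ⟨rfl, rfl, rfl, rfl⟩, rfl, rfl,
      rfl, rfl⟩
  · exact ⟨⟨1, x, 0, 0, 0, y, 0, -w, 0, z, 1, 0, 0, w, 0, 0⟩, by simp [det, this], ⟨rfl, rfl, rfl, rfl⟩, rfl, rfl,
      rfl, rfl⟩

theorem adj_sq {g : M4} (hg : g.det = 1) (m : M4) : g.adj * m * g * (g.adj * m * g) = g.adj * (m * m) * g := by
  simp only [mul_assoc]
  rw [← mul_assoc g g.adj, mul_adj hg, one_mul]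

theorem adj_det {g : M4} (hg : g.det = 1) (m : M4) : (g.adj * m * g).det = m.det := by
  rw [det_mul, det_mul, det_adj hg, hg, one_mul, mul_one]

theorem cj_vec (hd : d) {m : M4} (h1 : m.det = 1) (h2 : m * m = 1) (hn : m ≠ 1) {x y z w : ZMod 3}
    (h : x ≠ 0 ∨ y ≠ 0 ∨ z ≠ 0 ∨ w ≠ 0) (e1 : m.a11 * x + m.a12 * y + m.a13 * z + m.a14 * w = x)
    (e2 : m.a21 * x + m.a22 * y + m.a23 * z + m.a24 * w = y)
    (e3 : m.a31 * x + m.a32 * y + m.a33 * z + m.a34 * w = z)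
    (e4 : m.a41 * x + m.a42 * y + m.a43 * z + m.a44 * w = w) : Cj d m tt := by
  obtain ⟨g, hg, rfl, rfl, rfl, rfl⟩ := col1 h
  have k := adj_mul hg
  refine (cj_adj ⟨hg, Or.inl hd⟩ m).trans (cj_P ((adj_det hg m).trans h1) ?_ ?_ ?_ ?_
    (by rw [adj_sq hg, h2, mul_one, k]) fun e => hn ?_)
  · rw [mul_assoc, mul_a11, mul_a11, mul_a21, mul_a31, mul_a41, e1, e2, e3, e4]; exact congrArg M4.a11 k
  · rw [mul_assoc, mul_a21, mul_a11, mul_a21, mul_a31, mul_a41, e1, e2, e3, e4]; exact congrArg M4.a21 k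
  · rw [mul_assoc, mul_a31, mul_a11, mul_a21, mul_a31, mul_a41, e1, e2, e3, e4]; exact congrArg M4.a31 k
  · rw [mul_assoc, mul_a41, mul_a11, mul_a21, mul_a31, mul_a41, e1, e2, e3, e4]; exact congrArg M4.a41 k
  · have := congrArg (fun p => g * p * g.adj) e
    simp only [mul_one, mul_adj hg] at this
    rwa [← mul_assoc, ← mul_assoc, mul_adj hg, one_mul, mul_assoc, mul_adj hg, mul_one] at this

theorem cj_one {m : M4} (h : Dm d m) (h2 : m * m = 1) (hn : m ≠ 1) (hn' : m ≠ -1) :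
    Cj d m tt ∨ Cj d (-m) tt := by
  rcases h.2 with hd | ⟨e2, e3, e4⟩
  · left
    have h3 := h2
    simp only [M4.ext_iff] at h3
    simp at h3
    by_contra hc
    obtain ⟨p1, p2, p3, p4, p5, p6, p7, p8, p9, p10, p11, p12, p13, p14, p15, p16⟩ := h3
    have k := fun x y z w e1 e2 e3 e4 => mt (fun k => @cj_vec d hd m h.1 h2 hn x y z w k e1 e2 e3 e4) hc
    have k1 := k (m.a11 + 1) m.a21 m.a31 m.a41 (by linear_combination p1) (by linear_combination p5)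
      (by linear_combination p9) (by linear_combination p13)
    have k2 := k m.a12 (m.a22 + 1) m.a32 m.a42 (by linear_combination p2) (by linear_combination p6)
      (by linear_combination p10) (by linear_combination p14)
    have k3 := k m.a13 m.a23 (m.a33 + 1) m.a43 (by linear_combination p3) (by linear_combination p7)
      (by linear_combination p11) (by linear_combination p15)
    have k4 := k m.a14 m.a24 m.a34 (m.a44 + 1) (by linear_combination p4) (by linear_combination p8)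
      (by linear_combination p12) (by linear_combination p16)
    simp only [not_or, not_not, add_eq_zero_iff_eq_neg] at k1 k2 k3 k4
    apply hn'
    ext <;> simp [k1, k2, k3, k4]
  · have e1 : m.a11 * m.a11 = 1 := by simpa [e2, e3, e4] using congrArg M4.a11 h2
    rcases z3 m.a11 with e | e | e
    · rw [e] at e1; exact absurd e1 (by decide)
    · exact Or.inl (cj_P h.1 e e2 e3 e4 h2 hn)
    · exact Or.inr (cj_P h.neg.1 (by simp [e]) (by simp [e2]) (by simp [e3]) (by simp [e4]) (by simp [h2])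
        fun k => hn' (neg_eq_iff_eq_neg.1 k))

theorem cj_neg {m : M4} (h : Dm d m) (h2 : m * m = -1) : d ∧ Cj d m (-uI) := by
  have h0 : m.a21 ≠ 0 ∨ m.a31 ≠ 0 ∨ m.a41 ≠ 0 := by
    by_contra hn
    push Not at hn
    exact nsq m.a11 (by simpa [hn] using congrArg M4.a11 h2)
  have hd : d := h.2.resolve_right (by tauto)
  refine ⟨hd, ?_⟩
  obtain ⟨g, hg, ⟨c1, c2, c3, c4⟩, l1, l2, l3, l4⟩ := col2 m.a11 h0
  have k := adj_mul hg
  refine (cj_adj ⟨hg, Or.inl hd⟩ m).trans ?_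
  have e : g.adj * m * g * (g.adj * m * g) = -1 := by rw [adj_sq hg, h2, mul_neg, mul_one, neg_mul, k]
  have e1 : (g.adj * m * g).a11 = 0 := by
    rw [mul_assoc]; simpa [c1, c2, c3, c4, l1, l2, l3, l4] using congrArg M4.a12 k
  have e2 : (g.adj * m * g).a21 = 1 := by
    rw [mul_assoc]; simpa [c1, c2, c3, c4, l1, l2, l3, l4] using congrArg M4.a22 k
  have e3 : (g.adj * m * g).a31 = 0 := by
    rw [mul_assoc]; simpa [c1, c2, c3, c4, l1, l2, l3, l4] using congrArg M4.a32 k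
  have e4 : (g.adj * m * g).a41 = 0 := by
    rw [mul_assoc]; simpa [c1, c2, c3, c4, l1, l2, l3, l4] using congrArg M4.a42 k
  generalize g.adj * m * g = p at e e1 e2 e3 e4
  obtain ⟨a11, a12, a13, a14, a21, a22, a23, a24, a31, a32, a33, a34, a41, a42, a43, a44⟩ := p
  simp only at e1 e2 e3 e4
  subst e1 e2 e3 e4
  simp only [M4.ext_iff] at e
  simp at e
  have n := nsq a33
  refine cj_fix (g := ⟨1, 0, 0, a13, 0, 1, 0, a23, 0, 0, 1, a33, 0, 0, 0, a43⟩)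
    (s := ⟨1, -1, 0, 0, 1, 1, 0, 0, 0, 0, 1, 0, 0, 0, 0, 1⟩) ?_ ?_ (Or.inl hd) (by decide) (by decide) (Or.inl hd)
  · ext <;> simp [uI, n1, n3] <;> grind
  · simp [det]; grind

theorem Cj.eq (h : Hm d f) {m x : M4} (hm : Dm d m) (hx : Dm d x) (c : Cj d m x) :
    ∃ k ∈ h.H, k * f x * k⁻¹ = f m := by
  obtain ⟨g, hg, e⟩ := c
  exact ⟨f g, h.mH hg, h.cj hg hx hm e.symm⟩

theorem pb_tt : Pb tt := by decide

theorem fus (h : Hm d f) (ht : ∀ g, g * f tt = f tt * g → g ∈ h.H) (hu : d → ¬IsConj (f tt) (f uI)) (g : G)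
    (hg : g * f tt * g⁻¹ ∈ h.H) : g ∈ h.H := by
  obtain ⟨m, hm, e⟩ := hg
  have t1 : f tt ≠ 1 := fun k => absurd ((h.ker _ pb_tt.dm).1 k) (by decide)
  have n1 : ¬(m = 1 ∨ m = -1) := fun k => t1 (by simpa using e.symm.trans ((h.ker _ hm).2 k))
  have key : ∀ k ∈ h.H, k * f tt * k⁻¹ = f m → g ∈ h.H := fun k hk e' => by
    refine (mul_mem_cancel_left (inv_mem hk)).1 (ht _ ?_)
    calc k⁻¹ * g * f tt = k⁻¹ * (g * f tt * g⁻¹) * g := by group
      _ = _ := by rw [← e, ← e']; group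
  have m2 : f (m * m) = 1 := by
    rw [h.mul _ _ hm hm, e, conj_mul, h.mul' pb_tt.dm pb_tt.dm (x := 1) (by decide), h.one, mul_one,
      mul_inv_cancel]
  rcases (h.ker _ (hm.mul hm)).1 m2 with k | k
  · rcases cj_one hm k (fun e => n1 (Or.inl e)) (fun e => n1 (Or.inr e)) with c | c
    · obtain ⟨k, hk, e'⟩ := c.eq h hm pb_tt.dm
      exact key k hk e'
    · obtain ⟨k, hk, e'⟩ := c.eq h hm.neg pb_tt.dm
      exact key k hk (e'.trans (h.neg hm))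
  · obtain ⟨hd, c⟩ := cj_neg hm k
    have du : Dm d uI := ⟨by decide, Or.inl hd⟩
    obtain ⟨k, -, e'⟩ := c.eq h hm du.neg
    rw [h.neg du] at e'
    exact absurd ((isConj_iff.2 ⟨g, e.symm⟩).trans (isConj_iff.2 ⟨k, e'⟩).symm) (hu hd)

/-- eight coordinates -/
abbrev V8 := (ZMod 3 × ZMod 3 × ZMod 3 × ZMod 3) × (ZMod 3 × ZMod 3 × ZMod 3 × ZMod 3)

/-- matrices commuting with `tt` -/
def mC (v : V8) : M4 := ⟨v.1.1, 0, 0, v.1.2.1, 0, v.2.1, v.2.2.1, 0, 0, v.2.2.2.1, v.2.2.2.2, 0, v.1.2.2.1, 0, 0,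
  v.1.2.2.2⟩

/-- matrices anticommuting with `tt` -/
def mA (v : V8) : M4 := ⟨0, v.1.1, v.1.2.1, 0, v.2.1, 0, 0, v.2.2.1, v.2.2.2.1, 0, 0, v.2.2.2.2, 0, v.1.2.2.1,
  v.1.2.2.2, 0⟩

/-- the admissible coordinates -/
def ok (v : V8) : Prop := (v.1.1 = 1 ∨ (v.1.1 = 0 ∧ v.1.2.1 = 1)) ∧
  (v.1.1 * v.1.2.2.2 - v.1.2.1 * v.1.2.2.1) * (v.2.1 * v.2.2.2.2 - v.2.2.1 * v.2.2.2.1) = 1

instance (v : V8) : Decidable (ok v) := by unfold ok; infer_instance

theorem card_ok : Nat.card {v // ok v} = 576 := by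
  rw [Nat.card_eq_fintype_card, Fintype.card_subtype]
  decide +kernel

theorem ok_or : ∀ a b c e x : ZMod 3, (a * e - b * c) * x = 1 →
    (a = 1 ∨ (a = 0 ∧ b = 1)) ∨ (-a = 1 ∨ (-a = 0 ∧ -b = 1)) := by decide

theorem card_C (h : Hm d f) (ht : ∀ g, g * f tt = f tt * g → g ∈ h.H) :
    Nat.card (centralizer ({f tt} : Set G)) ≤ 1152 := by
  have : (centralizer ({f tt} : Set G) : Set G) ⊆ Set.range
      (Sum.elim (fun v => f (mC v.1)) (fun v => f (mA v.1)) : {v // ok v} ⊕ {v // ok v} → G) := by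
    intro g hg
    have hg := mem_centralizer_singleton_iff.1 hg
    obtain ⟨m, hm, rfl⟩ := ht g hg
    have h1 := hm.1
    have hn := h.neg hm
    obtain ⟨a11, a12, a13, a14, a21, a22, a23, a24, a31, a32, a33, a34, a41, a42, a43, a44⟩ := m
    rcases h.cj_or hm pb_tt.dm pb_tt.dm (by rw [hg, mul_inv_cancel_right]) with e | e
    all_goals
      simp only [M4.ext_iff] at e
      simp [tt, dg] at e
    · obtain ⟨rfl, rfl, rfl, rfl, rfl, rfl, rfl, rfl⟩ : a12 = 0 ∧ a13 = 0 ∧ a21 = 0 ∧ a24 = 0 ∧ a31 = 0 ∧ a34 = 0 ∧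
        a42 = 0 ∧ a43 = 0 := by grind
      have e2 : (a11 * a44 - a14 * a41) * (a22 * a33 - a23 * a32) = 1 := by
        simp only [det] at h1; linear_combination h1
      rcases ok_or _ _ _ _ _ e2 with k | k
      · exact ⟨.inl ⟨((a11, a14, a41, a44), (a22, a23, a32, a33)), k, e2⟩, rfl⟩
      · exact ⟨.inl ⟨((-a11, -a14, -a41, -a44), (-a22, -a23, -a32, -a33)), k, by linear_combination e2⟩,
          (congrArg f (by ext <;> simp [mC])).trans hn⟩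
    · obtain ⟨rfl, rfl, rfl, rfl, rfl, rfl, rfl, rfl⟩ : a11 = 0 ∧ a14 = 0 ∧ a22 = 0 ∧ a23 = 0 ∧ a32 = 0 ∧ a33 = 0 ∧
        a41 = 0 ∧ a44 = 0 := by grind
      have e2 : (a12 * a43 - a13 * a42) * (a21 * a34 - a24 * a31) = 1 := by
        simp only [det] at h1; linear_combination h1
      rcases ok_or _ _ _ _ _ e2 with k | k
      · exact ⟨.inr ⟨((a12, a13, a42, a43), (a21, a24, a31, a34)), k, e2⟩, rfl⟩
      · exact ⟨.inr ⟨((-a12, -a13, -a42, -a43), (-a21, -a24, -a31, -a34)), k, by linear_combination e2⟩,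
          (congrArg f (by ext <;> simp [mA])).trans hn⟩
  refine (Nat.card_mono (Set.toFinite _) this).trans ((Finite.card_range_le _).trans ?_)
  rw [Nat.card_sum, card_ok]

/-- the quaternion group -/
def q8 (p q r s : ZMod 3) : Prop := p * s - q * r = 1 ∧ (p + s = 0 ∨ (q = 0 ∧ r = 0))

instance (p q r s : ZMod 3) : Decidable (q8 p q r s) := by unfold q8; infer_instance

theorem q8_mul : ∀ p q r s, q8 p q r s → ∀ p' q' r' s', q8 p' q' r' s' →
    q8 (p * p' + q * r') (p * q' + q * s') (r * p' + s * r') (r * q' + s * s') := by decide +kernel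

theorem q8_cases : ∀ p q r s, q8 p q r s → (p = 1 ∧ q = 0 ∧ r = 0 ∧ s = 1) ∨ (p = -1 ∧ q = 0 ∧ r = 0 ∧ s = -1) ∨
    (p * p + q * r = -1 ∧ p * q + q * s = 0 ∧ r * p + s * r = 0 ∧ r * q + s * s = -1) := by decide +kernel

theorem card_q8 : Nat.card {v : ZMod 3 × ZMod 3 × ZMod 3 × ZMod 3 // q8 v.1 v.2.1 v.2.2.1 v.2.2.2} = 8 := by
  rw [Nat.card_eq_fintype_card, Fintype.card_subtype]
  decide +kernel

/-- the elements of `Q Q₈` -/
def bb (a b c e k p q r s : ZMod 3) : M4 := ⟨1, a, b, c, 0, p, q, e, 0, r, s, k, 0, 0, 0, 1⟩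

theorem pb_bb {a b c e k p q r s : ZMod 3} (h : q8 p q r s) : Pb (bb a b c e k p q r s) :=
  ⟨by simp only [det, bb]; linear_combination h.1, rfl, rfl, rfl⟩

theorem bb_mul (a b c e k p q r s a' b' c' e' k' p' q' r' s' : ZMod 3) :
    bb a b c e k p q r s * bb a' b' c' e' k' p' q' r' s' = bb (a' + a * p' + b * r') (b' + a * q' + b * s')
      (c' + a * e' + b * k' + c) (p * e' + q * k' + e) (r * e' + s * k' + k)
      (p * p' + q * r') (p * q' + q * s') (r * p' + s * r') (r * q' + s * s') := by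
  ext <;> simp [bb]

theorem inv_q (a b c e k : ZMod 3) : ∃ m, Pb m ∧ uu a b c 0 e k * m * uu a b c 0 e k = m := by
  have key : ∀ a' b' e' k' : ZMod 3, a * e' + b * k' + a' * e + b' * k = a * e + b * k + c →
      ∃ m, Pb m ∧ uu a b c 0 e k * m * uu a b c 0 e k = m := fun a' b' e' k' h =>
    ⟨bb a' b' 0 e' k' (-1) 0 0 (-1), pb_bb (by decide), by ext <;> simp [uu, bb] <;> grind⟩
  by_cases h1 : a = 0
  · by_cases h2 : b = 0
    · by_cases h3 : e = 0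
      · by_cases h4 : k = 0
        · exact ⟨rr, by decide, by ext <;> simp [uu, rr, dg, *]⟩
        · exact key 0 (k * c) 0 0 (by have := sq1 h4; grind)
      · exact key (e * c) 0 0 0 (by have := sq1 h3; grind)
    · exact key 0 0 0 (b * (a * e + b * k + c)) (by have := sq1 h2; grind)
  · exact key 0 0 (a * (a * e + b * k + c)) 0 (by have := sq1 h1; grind)

end PN

open PN in
theorem count (h : Hm d f) (ht : ∀ g, g * f tt = f tt * g → g ∈ h.H) (hu : d → ¬IsConj (f tt) (f uI))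
    (hq : ∀ a b c e k, uu a b c 0 e k ≠ 1 → ∀ g, g * f (uu a b c 0 e k) = f (uu a b c 0 e k) * g → g ∈ h.H)
    (g : G) : g ∈ h.H := by
  obtain ⟨B, hB⟩ := h.exists_sub (fun m => ∃ a b c e k p q r s, q8 p q r s ∧ m = bb a b c e k p q r s)
    ⟨0, 0, 0, 0, 0, 1, 0, 0, 1, by decide, rfl⟩ (by
      rintro _ _ ⟨a, b, c, e, k, p, q, r, s, h1, rfl⟩ ⟨a', b', c', e', k', p', q', r', s', h2, rfl⟩
      exact ⟨_, _, _, _, _, _, _, _, _, q8_mul _ _ _ _ h1 _ _ _ _ h2, bb_mul ..⟩) (by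
      rintro _ ⟨a, b, c, e, k, p, q, r, s, h1, rfl⟩
      exact (pb_bb h1).dm)
  have c1 : ∀ j a b c e k, uu a b c 0 e k ≠ 1 → j * f (uu a b c 0 e k) * j⁻¹ = (f (uu a b c 0 e k))⁻¹ →
      j ∈ h.H := fun j a b c e k hn hj => by
    obtain ⟨m, hm, e1⟩ := inv_q a b c e k
    have e2 := congrArg f e1
    rw [h.mul _ _ ((pb_uu ..).dm.mul hm.dm) (pb_uu ..).dm, h.mul _ _ (pb_uu ..).dm hm.dm] at e2
    refine (mul_mem_cancel_left (inv_mem (h.mH hm.dm))).1 (hq a b c e k hn _ ?_)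
    generalize f (uu a b c 0 e k) = u at e2 hj
    calc (f m)⁻¹ * j * u = (f m)⁻¹ * (j * u * j⁻¹) * j := by group
      _ = u * (u * f m * u)⁻¹ * j := by rw [hj]; group
      _ = _ := by rw [e2]; group
  have sq : ∀ {j x : G}, j * x * j⁻¹ = x⁻¹ → j * (x * x) * j⁻¹ = (x * x)⁻¹ := fun e => by
    rw [← conj_mul, e, mul_inv_rev]
  have c2 : ∀ j a b c e k, j * f (bb a b c e k (-1) 0 0 (-1)) * j⁻¹ = (f (bb a b c e k (-1) 0 0 (-1)))⁻¹ →
      j ∈ h.H := fun j a b c e k hj => by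
    have pb : Pb (bb a b c e k (-1) 0 0 (-1)) := pb_bb (by decide)
    have e1 := h.mul' pb.dm pb.dm (x := uu 0 0 (a * e + b * k - c) 0 0 0) (by ext <;> simp [uu, bb] <;> grind)
    by_cases h0 : a * e + b * k - c = 0
    · have e2 := h.cj (pb_uu a b 0 0 (-e) (-k)).dm pb_tt.dm pb.dm (by ext <;> simp [uu, bb, tt, dg] <;> grind)
      rw [h0, uu_zero, h.one] at e1
      rw [inv_eq_of_mul_eq_one_right e1, ← e2] at hj
      have m := h.mH (pb_uu a b 0 0 (-e) (-k)).dm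
      generalize f (uu a b 0 0 (-e) (-k)) = u at hj m
      refine (mul_mem_cancel_left (inv_mem m)).1 ((mul_mem_cancel_right m).1 (ht _ ?_))
      calc u⁻¹ * j * u * f tt = u⁻¹ * (j * (u * f tt * u⁻¹) * j⁻¹) * j * u := by group
        _ = _ := by rw [hj]; group
    · exact c1 j _ _ _ _ _ (fun k => h0 (uu_inj (k.trans uu_zero.symm)).2.2.1) (e1 ▸ sq hj)
  refine count_abs (B := B) (by rw [h.mul' pb_tt.dm pb_tt.dm (x := 1) (by decide), h.one]) (fun x hx => ?_)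
    (fus h ht hu) (fun j x hx hn hj => ?_) ?_ g
  · obtain ⟨_, ⟨a, b, c, e, k, p, q, r, s, h1, rfl⟩, rfl⟩ := (hB x).1 hx
    exact h.mH (pb_bb h1).dm
  · obtain ⟨_, ⟨a, b, c, e, k, p, q, r, s, h1, rfl⟩, rfl⟩ := (hB x).1 hx
    rcases q8_cases _ _ _ _ h1 with ⟨rfl, rfl, rfl, rfl⟩ | ⟨rfl, rfl, rfl, rfl⟩ | ⟨k1, k2, k3, k4⟩
    · exact c1 j a b c e k (fun k => hn ((congrArg f k).trans h.one)) hj
    · exact c2 j a b c e k hj
    · have := sq hj
      rw [h.mul' (pb_bb h1).dm (pb_bb h1).dm (bb_mul ..), k1, k2, k3, k4] at this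
      exact c2 j _ _ _ _ _ this
  · refine (card_C h ht).trans_lt (lt_of_lt_of_le ?_ (Nat.card_le_card_of_injective
      (α := (ZMod 3 × ZMod 3 × ZMod 3 × ZMod 3 × ZMod 3) ×
        {v : ZMod 3 × ZMod 3 × ZMod 3 × ZMod 3 // q8 v.1 v.2.1 v.2.2.1 v.2.2.2})
      (fun v => ⟨_, (hB _).2 ⟨_, ⟨v.1.1, v.1.2.1, v.1.2.2.1, v.1.2.2.2.1, v.1.2.2.2.2, _, _, _, _, v.2.2, rfl⟩,
        rfl⟩⟩) ?_))
    · simp only [Nat.card_prod, card_q8, Nat.card_zmod]; decide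
    · rintro ⟨⟨a, b, c, e, k⟩, ⟨p, q, r, s⟩, h1⟩ ⟨⟨a', b', c', e', k'⟩, ⟨p', q', r', s'⟩, h2⟩ e0
      rcases (h.eq_iff (pb_bb h1).dm (pb_bb h2).dm).1 (congrArg Subtype.val e0) with e1 | e1
      · simp only [bb, M4.mk.injEq] at e1
        simp [e1]
      · exact absurd (congrArg M4.a11 e1) (show (1 : ZMod 3) ≠ -1 by decide)

end H20.L43
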